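import Mathlib
import Cfsg.Agent.FixBN.ReeSplit
import Cfsg.Agent.H448.FprTwF.Frat
import Cfsg.Agent.H435.Fpr.Sharp
import Cfsg.Agent.H409.FprBasic
import Cfsg.Agent.S1073

/-!
# Involutions of the Ree groups `²G₂(q)`, `q > 3`: fixed point ratio at most `1/3` (helper448)

`Q` the Sylow 3-subgroup, `z = h (-1)` an involution normalising `Q`, `[Q, z] = Q`. On a `Q⟨z⟩`-orbit without fixed
points of `Q` the ratio of `z` is at most `1/3`; a proper subgroup containing a conjugate of `Q` is contained in a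
conjugate of the Borel subgroup `B`, and `z` fixes `q + 1` of the `q³ + 1` points of `G / B`.
-/

set_option autoImplicit false
set_option linter.unusedSectionVars false

namespace Cfsg.Agent.H448.FprRee

open Subgroup MulAction Cfsg Cfsg.Lie
open Cfsg.Agent.LieRecognition.ReeAbs Cfsg.Agent.LieRecognition.ReeSylowThree Cfsg.Agent.FixBN.ReeSplit
open Cfsg.Agent.H409 (FprRow)
open Cfsg.Agent.H398.FPR Cfsg.Agent.H435.Fpr

variable {K : Type*} [Field K] {G : Type*} [Group G] {m : ℕ} {U : K → K → K → G} {h : Kˣ → G} {n : G}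

section Full

theorem sig_zero : (0 : K) ^ (3 ^ (m + 1)) = 0 := zero_pow (pow_ne_zero _ (by norm_num))

/-- a commutator of elements of the Sylow subgroup -/
theorem comm_eq (D : Data m U h n) {a b : G} {t u v t' u' v' : K} (ha : a = U t u v) (hb : b = U t' u' v') :
    ∃ w, a * b * a⁻¹ * b⁻¹ = U 0 (t' * t ^ (3 ^ (m + 1)) - t * t' ^ (3 ^ (m + 1))) w := by
  obtain ⟨x, y, z, hc⟩ : a * b * a⁻¹ * b⁻¹ ∈ uSub D := by
    have h1 : a ∈ uSub D := ⟨_, _, _, ha⟩
    have h2 : b ∈ uSub D := ⟨_, _, _, hb⟩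
    exact mul_mem (mul_mem (mul_mem h1 h2) (inv_mem h1)) (inv_mem h2)
  have e : U x y z * (b * a) = a * b := by rw [← hc]; group
  rw [ha, hb, D.U_mul, D.U_mul, D.U_mul] at e
  obtain ⟨h1, h2, h3⟩ := U_injective D e
  have hx : x = 0 := by linear_combination h1
  subst hx
  refine ⟨z, ?_⟩
  rw [hc]
  congr 1
  linear_combination h2

theorem comm_eq' (D : Data m U h n) (u : K) :
    U 0 u 0 * U 1 0 0 * (U 0 u 0)⁻¹ * (U 1 0 0)⁻¹ = U 0 0 (-u) := by
  have e : U 0 0 (-u) * (U 1 0 0 * U 0 u 0) = U 0 u 0 * U 1 0 0 := by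
    rw [D.U_mul, D.U_mul, D.U_mul]
    simp only [sig_zero]
    congr 1 <;> ring
  rw [mul_inv_eq_iff_eq_mul, mul_inv_eq_iff_eq_mul, mul_assoc, e]

variable [Fintype K] (hK : Fintype.card K = 3 ^ (2 * m + 1))

include hK

theorem exists_ne (hm : 1 ≤ m) : ∃ t : K, t ^ (3 ^ (m + 1)) - t ≠ 0 := by
  by_contra hcon
  push Not at hcon
  have h1 : ∀ a : Kˣ, a ^ (3 ^ (m + 1) - 1) = 1 := by
    intro a
    have h2 := sub_eq_zero.1 (hcon (a : K))
    have h3 : a ^ (3 ^ (m + 1)) = a := Units.ext (by rw [Units.val_pow_eq_pow_val]; exact h2)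
    have h4 : 3 ^ (m + 1) = (3 ^ (m + 1) - 1) + 1 := by
      have : 0 < 3 ^ (m + 1) := by positivity
      omega
    rw [h4, pow_succ] at h3
    exact mul_eq_right.1 h3
  obtain ⟨g, hg⟩ := IsCyclic.exists_generator (α := Kˣ)
  have h2 : orderOf g = Nat.card Kˣ := orderOf_eq_card_of_forall_mem_zpowers hg
  have h3 : Nat.card Kˣ ∣ 3 ^ (m + 1) - 1 := by
    rw [← h2]; exact orderOf_dvd_of_pow_eq_one (h1 g)
  rw [Nat.card_units, Nat.card_eq_fintype_card, hK] at h3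
  have h4 : 3 ^ (m + 1) < 3 ^ (2 * m + 1) := Nat.pow_lt_pow_right (by norm_num) (by omega)
  have h5 : 3 ≤ 3 ^ (m + 1) := by
    calc 3 = 3 ^ 1 := by norm_num
      _ ≤ _ := Nat.pow_le_pow_right (by norm_num) (by omega)
  have h6 := Nat.le_of_dvd (by omega) h3
  omega

theorem isPGroup_u (D : Data m U h n) : IsPGroup 3 (uSub D) := by
  apply IsPGroup.of_card (n := 3 * (2 * m + 1))
  rw [card_uSub, hK, ← pow_mul, mul_comm]

theorem three_zero : (3 : K) = 0 := by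
  have := charP_three hK
  exact CharP.cast_eq_zero K 3

/-- **`[Q, z] = Q`.** -/
theorem commFull (hm : 1 ≤ m) (D : Data m U h n) : CommFull (uSub D) (h (-1)) := by
  have : Fact (Nat.Prime 3) := ⟨Nat.prime_three⟩
  have : Finite G := Cfsg.Agent.LieRecognition.ReeSylowThree.finite D
  have h3 := three_zero hK
  refine Cfsg.Agent.H448.FprTwF.commFull_of (q := 3) (isPGroup_u hK D) fun M hM hc _ hy => ?_
  -- the first coordinate
  have ht : ∀ t, ∃ u v, U t u v ∈ M := by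
    intro t
    obtain ⟨x, y, z, hxyz⟩ : h (-1) * U t 0 0 * (h (-1))⁻¹ * (U t 0 0)⁻¹ ∈ uSub D :=
      hM (hy _ ⟨_, _, _, rfl⟩)
    have e : U x y z * U t 0 0 = h (-1) * U t 0 0 * (h (-1))⁻¹ := by rw [← hxyz]; group
    rw [D.inv_mul_U, mul_inv_cancel_right, D.U_mul] at e
    obtain ⟨h1, -, -⟩ := U_injective D e
    have hx : x = t := by linear_combination h1 - t * h3
    refine ⟨y, z, ?_⟩
    rw [← hx, ← hxyz]
    exact hy _ ⟨_, _, _, rfl⟩
  -- the third coordinate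
  have hv : ∀ v, U 0 0 v ∈ M := by
    intro v
    have h1 := hc (U 0 (-v) 0) ⟨_, _, _, rfl⟩ (U 1 0 0) ⟨_, _, _, rfl⟩
    rwa [comm_eq' D, neg_neg] at h1
  -- the second coordinate
  obtain ⟨t0, ht0⟩ := exists_ne hK hm
  set u0 := t0 ^ (3 ^ (m + 1)) - t0 with hu0
  have hadd : ∀ x y, U 0 x 0 ∈ M → U 0 y 0 ∈ M → U 0 (x + y) 0 ∈ M := by
    intro x y hx hy
    rw [D.U_add]; exact mul_mem hx hy
  have hneg : ∀ x, U 0 x 0 ∈ M → U 0 (-x) 0 ∈ M := by
    intro x hx
    rw [D.U_neg]; exact inv_mem hx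
  have hw : ∀ x w, U 0 x w ∈ M → U 0 x 0 ∈ M := by
    intro x w hxw
    have e : U 0 x w * U 0 0 (-w) = U 0 x 0 := by
      rw [D.U_mul]
      simp only [sig_zero]
      congr 1 <;> ring
    rw [← e]
    exact mul_mem hxw (hv _)
  have hcm : ∀ t s, U 0 (s * t ^ (3 ^ (m + 1)) - t * s ^ (3 ^ (m + 1))) 0 ∈ M := by
    intro t s
    obtain ⟨w, hw'⟩ := comm_eq D (a := U t 0 0) (b := U s 0 0) rfl rfl
    have h1 := hc (U t 0 0) ⟨_, _, _, rfl⟩ (U s 0 0) ⟨_, _, _, rfl⟩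
    rw [hw'] at h1
    exact hw _ _ h1
  have hsq : ∀ x : K, U 0 (x ^ 2 * u0) 0 ∈ M := by
    intro x
    by_cases hx : x = 0
    · subst hx
      have e : (0 : K) ^ 2 * u0 = 0 := by ring
      rw [e, D.U_zero]
      exact one_mem _
    · set a : Kˣ := f m (Units.mk0 x hx) with ha
      have h1 : ((a : K)) ^ (3 ^ (m + 1) + 3) = x ^ 2 := by
        have h2 := congrArg (Units.val : Kˣ → K) (f_pow hK (Units.mk0 x hx))
        rw [Units.val_pow_eq_pow_val, Units.val_pow_eq_pow_val, Units.val_mk0] at h2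
        exact h2
      obtain ⟨w, hw'⟩ := comm_eq D (a := U t0 0 0) (b := U 1 0 0) rfl rfl
      have e1 : (1 : K) * t0 ^ (3 ^ (m + 1)) - t0 * 1 ^ (3 ^ (m + 1)) = u0 := by
        rw [one_pow, one_mul, mul_one, hu0]
      rw [e1] at hw'
      have h2 := hc (h a * U t0 0 0 * (h a)⁻¹) (h_conj_mem D a ⟨_, _, _, rfl⟩) (h a * U 1 0 0 * (h a)⁻¹)
        (h_conj_mem D a ⟨_, _, _, rfl⟩)
      have h4 : h a * U t0 0 0 * (h a)⁻¹ * (h a * U 1 0 0 * (h a)⁻¹) * (h a * U t0 0 0 * (h a)⁻¹)⁻¹ *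
          (h a * U 1 0 0 * (h a)⁻¹)⁻¹ = h a * (U t0 0 0 * U 1 0 0 * (U t0 0 0)⁻¹ * (U 1 0 0)⁻¹) * (h a)⁻¹ := by
        group
      rw [h4, hw', D.h_U, mul_inv_cancel_right, mul_zero, h1] at h2
      exact hw _ _ h2
  have hu : ∀ u, U 0 u 0 ∈ M := by
    intro u
    have h1 : u = (u / u0 + 1) ^ 2 * u0 + -((u / u0 - 1) ^ 2 * u0) := by
      have h2 : (u / u0 + 1) ^ 2 * u0 + -((u / u0 - 1) ^ 2 * u0) = 4 * (u / u0 * u0) := by ring
      rw [h2, div_mul_cancel₀ _ ht0]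
      linear_combination -u * h3
    rw [h1]
    exact hadd _ _ (hsq _) (hneg _ (hsq _))
  rintro _ ⟨t, u, v, rfl⟩
  obtain ⟨u1, v1, h1⟩ := ht t
  have e : U t u v = U t u1 v1 * U 0 (u - u1) 0 * U 0 0 (v - v1) := by
    rw [D.U_mul, D.U_mul]
    simp only [sig_zero]
    congr 1 <;> ring
  rw [e]
  exact mul_mem (mul_mem h1 (hu _)) (hv _)

end Full

/-! ### the overgroups of `Q` -/

/-- **The overgroups of `Q`.** -/
theorem le_bSub [IsSimpleGroup G] (D : Data m U h n) {H : Subgroup G} (hQ : uSub D ≤ H) (hH : H ≠ ⊤) : H ≤ bSub D := by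
  intro x hx
  by_contra hxB
  obtain ⟨t, u, v, a, t', u', v', rfl⟩ := (D.bruhat x).resolve_left (by
    rintro ⟨t, u, v, a, rfl⟩
    exact hxB ⟨U t u v, ⟨_, _, _, rfl⟩, a, rfl⟩)
  have h1 : h a * n ∈ H := by
    have h2 : U t u v ∈ H := hQ ⟨_, _, _, rfl⟩
    have h3 : U t' u' v' ∈ H := hQ ⟨_, _, _, rfl⟩
    have h4 : h a * n = (U t u v)⁻¹ * (U t u v * h a * n * U t' u' v') * (U t' u' v')⁻¹ := by group
    rw [h4]
    exact mul_mem (mul_mem (inv_mem h2) hx) (inv_mem h3)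
  -- `n Q n ≤ H`
  have h2 : ∀ y ∈ uSub D, n * y * n ∈ H := by
    intro y hy
    have h3 := mul_mem (mul_mem (inv_mem h1) (hQ (h_conj_mem D a hy))) h1
    have h4 : (h a * n)⁻¹ * (h a * y * (h a)⁻¹) * (h a * n) = n * y * n := by
      rw [mul_inv_rev, D.n_inv]; group
    rwa [h4] at h3
  set L : Subgroup G := uSub D ⊔ (uSub D).map (MulAut.conj n).toMonoidHom with hL
  have hLH : L ≤ H := by
    refine sup_le hQ ?_
    rintro _ ⟨y, hy, rfl⟩
    have h3 := h2 y hy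
    show n * y * n⁻¹ ∈ H
    rwa [D.n_inv]
  have hQL : uSub D ≤ L := le_sup_left
  have hnL : ∀ y ∈ uSub D, n * y * n ∈ L := fun y hy => le_sup_right (a := uSub D) ⟨y, hy, by
    show n * y * n⁻¹ = _
    rw [D.n_inv]⟩
  -- conjugation by `g` maps `L` into `L`
  have key : ∀ g : G, (∀ y ∈ uSub D, g * y * g⁻¹ ∈ L) → (∀ y ∈ uSub D, g * (n * y * n) * g⁻¹ ∈ L) →
      ∀ y ∈ L, g * y * g⁻¹ ∈ L := by
    intro g h3 h4
    have h5 : L ≤ L.comap (MulAut.conj g).toMonoidHom := by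
      refine sup_le (fun y hy => h3 y hy) ?_
      rintro _ ⟨y, hy, rfl⟩
      have h6 := h4 y hy
      show g * (n * y * n⁻¹) * g⁻¹ ∈ L
      rwa [D.n_inv]
    exact fun y hy => h5 hy
  have hnn : ∀ y ∈ L, n * y * n⁻¹ ∈ L := by
    refine key n (fun y hy => by rw [D.n_inv]; exact hnL y hy) fun y hy => ?_
    have h3 : n * (n * y * n) * n⁻¹ = (n * n) * y * (n * n⁻¹) := by group
    rw [h3, D.n_n, mul_inv_cancel, one_mul, mul_one]
    exact hQL hy
  have hhh : ∀ a, ∀ y ∈ L, h a * y * (h a)⁻¹ ∈ L := by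
    intro a
    refine key _ (fun y hy => hQL (h_conj_mem D a hy)) fun y hy => ?_
    have h3 : h a * (n * y * n) * (h a)⁻¹ = n * (h a⁻¹ * y * (h a⁻¹)⁻¹) * n := by
      rw [D.h_inv, inv_inv]
      have h4 : n * (h a)⁻¹ = h a * n := by rw [← D.h_inv, ← D.n_h' a]
      calc h a * (n * y * n) * (h a)⁻¹ = (h a * n) * y * (n * (h a)⁻¹) := by group
        _ = (n * (h a)⁻¹) * y * (h a * n) := by rw [h4]
        _ = _ := by group
    rw [h3]
    exact hnL _ (h_conj_mem D _ hy)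
  have huu : ∀ z ∈ uSub D, ∀ y ∈ L, z * y * z⁻¹ ∈ L := fun z hz y hy =>
    mul_mem (mul_mem (hQL hz) hy) (inv_mem (hQL hz))
  have hmul : ∀ {g g' : G}, (∀ y ∈ L, g * y * g⁻¹ ∈ L) → (∀ y ∈ L, g' * y * g'⁻¹ ∈ L) →
      ∀ y ∈ L, g * g' * y * (g * g')⁻¹ ∈ L := by
    intro g g' h3 h4 y hy
    have h5 := h3 _ (h4 y hy)
    have h6 : g * g' * y * (g * g')⁻¹ = g * (g' * y * g'⁻¹) * g⁻¹ := by group
    rwa [h6]
  have hnorm : L.Normal := by
    refine ⟨fun y hy g => ?_⟩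
    rcases D.bruhat g with ⟨t, u, v, a, rfl⟩ | ⟨t, u, v, a, t', u', v', rfl⟩
    · exact hmul (huu _ ⟨_, _, _, rfl⟩) (hhh a) y hy
    · exact hmul (hmul (hmul (huu _ ⟨_, _, _, rfl⟩) (hhh a)) hnn) (huu _ ⟨_, _, _, rfl⟩) y hy
  rcases hnorm.eq_bot_or_eq_top with h3 | h3
  · have h4 : U 1 0 0 ∈ L := hQL ⟨_, _, _, rfl⟩
    rw [h3, mem_bot, ← D.U_zero] at h4
    exact one_ne_zero (U_injective D h4).1
  · exact hH (top_le_iff.1 (h3 ▸ hLH))

/-! ### the points of `G / B` -/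

section Borel

variable [Fintype K] (hK : Fintype.card K = 3 ^ (2 * m + 1))

theorem card_bSub (D : Data m U h n) : Nat.card (bSub D) = Fintype.card K ^ 3 * (Fintype.card K - 1) := by
  let f : (K × K × K) × Kˣ → bSub D := fun x => ⟨U x.1.1 x.1.2.1 x.1.2.2 * h x.2, U x.1.1 x.1.2.1 x.1.2.2, ⟨_, _, _, rfl⟩,
    x.2, rfl⟩
  have hf : Function.Bijective f := by
    constructor
    · rintro ⟨⟨t, u, v⟩, a⟩ ⟨⟨t', u', v'⟩, a'⟩ he
      obtain ⟨rfl, rfl, rfl, rfl⟩ := D.inj₁ _ _ _ _ _ _ _ _ (congrArg Subtype.val he)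
      rfl
    · rintro ⟨g, _, ⟨t, u, v, rfl⟩, a, rfl⟩
      exact ⟨((t, u, v), a), rfl⟩
  rw [← Nat.card_congr (Equiv.ofBijective f hf), Nat.card_prod, Nat.card_prod, Nat.card_prod, Nat.card_units,
    Nat.card_eq_fintype_card]
  ring

theorem index_bSub (D : Data m U h n) (h1 : 1 < Fintype.card K) : Nat.card (G ⧸ bSub D) = Fintype.card K ^ 3 + 1 := by
  have : Finite G := Cfsg.Agent.LieRecognition.ReeSylowThree.finite D
  have h2 := (bSub D).card_mul_index
  rw [card_bSub, card_eq D] at h2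
  have h3 : 0 < Fintype.card K ^ 3 * (Fintype.card K - 1) := Nat.mul_pos (by positivity) (by omega)
  exact Nat.eq_of_mul_eq_mul_left h3 h2

/-- the points of `G / B` -/
def pt (D : Data m U h n) : Option (K × K × K) → G ⧸ bSub D
  | none => ((1 : G) : G ⧸ bSub D)
  | some x => ((U x.1 x.2.1 x.2.2 * n : G) : G ⧸ bSub D)

theorem pt_surjective (D : Data m U h n) : Function.Surjective (pt D) := by
  intro ω
  obtain ⟨g, rfl⟩ := QuotientGroup.mk_surjective ω
  rcases D.bruhat g with ⟨t, u, v, a, rfl⟩ | ⟨t, u, v, a, t', u', v', rfl⟩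
  · refine ⟨none, ?_⟩
    show ((1 : G) : G ⧸ bSub D) = _
    rw [QuotientGroup.eq, inv_one, one_mul]
    exact ⟨_, ⟨_, _, _, rfl⟩, _, rfl⟩
  · refine ⟨some (t, u, v), ?_⟩
    show ((U t u v * n : G) : G ⧸ bSub D) = _
    rw [QuotientGroup.eq]
    have e : (U t u v * n)⁻¹ * (U t u v * h a * n * U t' u' v') = h a⁻¹ * U t' u' v' := by
      rw [mul_inv_rev, D.n_inv]
      calc n * (U t u v)⁻¹ * (U t u v * h a * n * U t' u' v') = n * (h a * n) * U t' u' v' := by group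
        _ = _ := by rw [D.n_h' a, ← mul_assoc, D.n_n, one_mul]
    rw [e]
    exact mul_mem (h_mem_bSub D _) (uSub_le_bSub D ⟨_, _, _, rfl⟩)

theorem pt_bijective (D : Data m U h n) (h1 : 1 < Fintype.card K) : Function.Bijective (pt D) := by
  have : Finite G := Cfsg.Agent.LieRecognition.ReeSylowThree.finite D
  refine (Nat.bijective_iff_surjective_and_card _).2 ⟨pt_surjective D, ?_⟩
  rw [index_bSub D h1, Nat.card_eq_fintype_card, Fintype.card_option, Fintype.card_prod, Fintype.card_prod]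
  ring

include hK in
/-- **The involution on `G / B`.** -/
theorem fix_bSub (D : Data m U h n) : 3 * Nat.card (fixedBy (G ⧸ bSub D) (h (-1))) ≤ 1 * Nat.card (G ⧸ bSub D) := by
  have : Finite G := Cfsg.Agent.LieRecognition.ReeSylowThree.finite D
  have h3 : 3 ≤ Fintype.card K := by
    rw [hK]
    calc 3 = 3 ^ 1 := by norm_num
      _ ≤ _ := Nat.pow_le_pow_right (by norm_num) (by omega)
  have h1 : 1 < Fintype.card K := by omega
  have hbij := pt_bijective D h1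
  have h4 : Nat.card (fixedBy (G ⧸ bSub D) (h (-1))) ≤ Fintype.card K + 1 := by
    have h5 : Nat.card (Option K) = Fintype.card K + 1 := by
      rw [Nat.card_eq_fintype_card, Fintype.card_option]
    rw [← h5]
    have hfix : ∀ ω : fixedBy (G ⧸ bSub D) (h (-1)), ∃ x : Option K, pt D (x.map fun u => (0, u, 0)) = ω.1 := by
      rintro ⟨ω, hω⟩
      obtain ⟨x, rfl⟩ := hbij.2 ω
      rcases x with _ | ⟨t, u, v⟩
      · exact ⟨none, rfl⟩
      · rw [mem_fixedBy] at hω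
        have e : h (-1) • pt D (some (t, u, v)) = pt D (some (-t, u, -v)) := by
          show ((h (-1) * (U t u v * n) : G) : G ⧸ bSub D) = ((U (-t) u (-v) * n : G) : G ⧸ bSub D)
          rw [← mul_assoc, D.inv_mul_U, mul_assoc, D.inv_mul_n, ← mul_assoc]
          rw [eq_comm, QuotientGroup.eq]
          have e2 : (U (-t) u (-v) * n)⁻¹ * (U (-t) u (-v) * n * h (-1)) = h (-1) := by group
          rw [e2]
          exact h_mem_bSub D _
        rw [e] at hω
        have h6 := hbij.1 hω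
        simp only [Option.some.injEq, Prod.mk.injEq] at h6
        have ht := D.neg_eq_self hK h6.1
        have hv := D.neg_eq_self hK h6.2.2
        subst ht
        subst hv
        exact ⟨some u, rfl⟩
    choose g hg using hfix
    refine Nat.card_le_card_of_injective g fun a b hab => Subtype.ext ?_
    rw [← hg a, ← hg b, hab]
  rw [index_bSub D h1, one_mul]
  calc 3 * Nat.card (fixedBy (G ⧸ bSub D) (h (-1))) ≤ 3 * (Fintype.card K + 1) := Nat.mul_le_mul_left _ h4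
    _ ≤ Fintype.card K ^ 3 + 1 := by nlinarith [Nat.mul_le_mul h3 h3]

end Borel

/-! ### the row -/

/-- **The row.** -/
theorem fpr_data [Fintype K] (hK : Fintype.card K = 3 ^ (2 * m + 1)) (hm : 1 ≤ m) [IsSimpleGroup G]
    (D : Data m U h n) : FprRow 3 1 2 G := by
  have : Finite G := Cfsg.Agent.LieRecognition.ReeSylowThree.finite D
  intro H hH
  have hz2 : h (-1) ^ 2 ^ 1 = 1 := by rw [pow_one, pow_two]; exact D.inv_sq
  refine ⟨h (-1), ?_, ?_⟩
  · obtain ⟨k, -, hk⟩ := (Nat.dvd_prime_pow Nat.prime_two).1 (orderOf_dvd_of_pow_eq_one hz2)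
    exact ⟨k, hk⟩
  by_cases hf : fixedBy (G ⧸ H) (h (-1)) ∩ fs (uSub D) (G ⧸ H) = ∅
  · have hP : PairM 3 (h (-1)) (uSub D) := by
      refine PairM.of_pGroup (p := 2) (k := 1) (r := 3) Nat.prime_two Nat.prime_three hz2 (isPGroup_u hK D) ?_
        (commFull hK hm D) ?_
      · rw [mem_normalizer_iff]
        intro y
        refine ⟨fun hy => h_conj_mem D _ hy, fun hy => ?_⟩
        have h1 := h_conj_mem D (-1) hy
        have h2 : h (-1) * (h (-1) * y * (h (-1))⁻¹) * (h (-1))⁻¹ = (h (-1) * h (-1)) * y * (h (-1) * h (-1))⁻¹ := by group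
        rwa [h2, D.inv_sq, inv_one, one_mul, mul_one] at h1
      · intro t ht _
        calc 3 = 3 ^ 1 := by norm_num
          _ ≤ _ := Nat.pow_le_pow_right (by norm_num) (by omega)
    rw [one_mul]
    exact hP.bound_of_free hf
  · obtain ⟨ω, -, hω⟩ := Set.nonempty_iff_ne_empty.2 hf
    rw [mem_fs] at hω
    obtain ⟨g, rfl⟩ := QuotientGroup.mk_surjective ω
    have hst : stabilizer G ((g : G) : G ⧸ H) ≠ ⊤ := by
      intro h1
      apply hH
      rw [eq_top_iff]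
      intro y _
      have h2 : g * y * g⁻¹ ∈ stabilizer G ((g : G) : G ⧸ H) := by rw [h1]; exact mem_top _
      rw [mem_stabilizer_iff] at h2
      have h3 : ((g * y * g⁻¹ * g : G) : G ⧸ H) = ((g : G) : G ⧸ H) := h2
      rw [inv_mul_cancel_right, eq_comm, QuotientGroup.eq] at h3
      have h4 : g⁻¹ * (g * y) = y := by group
      rwa [h4] at h3
    have hB := le_bSub D hω hst
    let φ : G ⧸ H → G ⧸ bSub D := Quotient.lift (fun a : G => ((a * g⁻¹ : G) : G ⧸ bSub D)) (by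
      intro a b hab
      have h1 : a⁻¹ * b ∈ H := QuotientGroup.leftRel_apply.1 hab
      show ((a * g⁻¹ : G) : G ⧸ bSub D) = ((b * g⁻¹ : G) : G ⧸ bSub D)
      rw [QuotientGroup.eq]
      apply hB
      rw [mem_stabilizer_iff]
      show (((a * g⁻¹)⁻¹ * (b * g⁻¹) * g : G) : G ⧸ H) = _
      rw [eq_comm, QuotientGroup.eq]
      have h2 : g⁻¹ * ((a * g⁻¹)⁻¹ * (b * g⁻¹) * g) = a⁻¹ * b := by group
      rwa [h2])
    refine Cfsg.Agent.H409.fix_le_of_map (MonoidHom.id G) Function.surjective_id φ ?_ (h (-1)) (fix_bSub hK D)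
    intro x ω
    obtain ⟨y, rfl⟩ := QuotientGroup.mk_surjective ω
    show ((x * y * g⁻¹ : G) : G ⧸ bSub D) = ((x * (y * g⁻¹) : G) : G ⧸ bSub D)
    rw [mul_assoc]

/-- **Involutions of the Ree groups.** -/
theorem row_ree_two {X : Type*} [Group X] (hX : IsoRee X) : FprRow 3 1 2 X := by
  obtain ⟨K, _, _, m, hm, hK, ⟨e⟩⟩ := hX
  obtain ⟨U, h, n, D⟩ := Cfsg.Agent.ChevalleyStructure.Ree.Data.exists_data hK
  have hs := (Cfsg.Agent.S1073.result hm hK).1
  have hfin : Finite ↥(twistedG2 K (3 ^ m)) := Cfsg.Agent.LieRecognition.ReeSylowThree.finite D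
  exact Cfsg.Agent.H409.FprRow.of_mulEquiv Nat.prime_two e.symm (fpr_data hK hm D)

end Cfsg.Agent.H448.FprRee
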