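import Cfsg.Agent.H448.RealNil

/-!
# Real vectors for nilpotent `p'`-groups: the induction (for S4990)
-/

set_option autoImplicit false

namespace Cfsg.Agent.H448.RealMain

open Module Cfsg.Agent.H448.RealVec Cfsg.Agent.H448.RealNil

universe u v

variable {p : ℕ} [Fact p.Prime]

theorem real_of_subsingleton {F : Type u} [Group F] {V : Type v} [AddCommGroup V]
    [Module (ZMod p) V] [Subsingleton V] (ρ : Representation (ZMod p) F V) : Real ρ :=
  ⟨0, ⟨fun _ _ => 0, fun _ _ _ => (add_zero 0).symm, fun _ _ _ => (add_zero 0).symm,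
    fun _ _ => Subsingleton.elim _ _⟩, fun _ _ _ _ => rfl⟩

theorem real_of_faithful {Q : Type u} [Group Q] [Finite Q] [Group.IsNilpotent Q]
    {V : Type v} [AddCommGroup V] [Module (ZMod p) V] [Finite V] [Nontrivial V]
    (ρ : Representation (ZMod p) Q V) (hρ : Function.Injective ρ) (hQ : ¬ p ∣ Nat.card Q)
    (hirr : ∀ W : Subrepresentation ρ, W.toSubmodule = ⊥ ∨ W.toSubmodule = ⊤)
    (ih : ∀ S : Subgroup Q, ∀ W : Subrepresentation (ρ.comp S.subtype),
      finrank (ZMod p) W.toSubmodule < finrank (ZMod p) V → Real W.toRepresentation) : Real ρ := by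
  obtain ⟨A, hAn, hAc, hAC⟩ :=
    Cfsg.Agent.Lib.NormalAbelian.exists_normal_abelian_selfCentralizing (G := Q)
  have hA : ∀ a ∈ A, ∀ b ∈ A, a * b = b * a := fun a ha b hb =>
    congrArg Subtype.val (hAc.is_comm.comm ⟨a, ha⟩ ⟨b, hb⟩)
  have hpA : ¬ p ∣ Nat.card A := fun h => hQ (h.trans (Subgroup.card_subgroup_dvd_card A))
  by_cases hid : ∀ e ∈ alg ρ A, e * e = e → e = 0 ∨ e = 1
  · exact real_of_field hρ A hA hAC hpA hid
  · push Not at hid
    obtain ⟨e, he1, he2, he3, he4⟩ := hid
    exact real_of_idempotent hirr A hA he1 he2 he3 he4 ih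

theorem real_of_quotient {F : Type u} [Group F] {Q : Type u} [Group Q]
    {V : Type v} [AddCommGroup V] [Module (ZMod p) V]
    {ρ : Representation (ZMod p) F V} {ρ' : Representation (ZMod p) Q V} (f : F →* Q)
    (hf : ∀ g, ρ' (f g) = ρ g) (h : Real ρ') : Real ρ := by
  obtain ⟨v, B, hB⟩ := h
  refine ⟨v, B, fun g hg x y => ?_⟩
  have h1 := hB (f g) (by rw [hf]; exact hg) x y
  rwa [hf] at h1

theorem exists_kerLift {F : Type u} [Group F] {V : Type v} [AddCommGroup V] [Module (ZMod p) V]
    (ρ : Representation (ZMod p) F V) : ∃ ρ' : Representation (ZMod p) (F ⧸ ρ.ker) V,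
      Function.Injective ρ' ∧ ∀ g : F, ρ' (QuotientGroup.mk' ρ.ker g) = ρ g := by
  refine ⟨QuotientGroup.lift ρ.ker ρ le_rfl, ?_, fun g => QuotientGroup.lift_mk' _ _ g⟩
  rw [injective_iff_map_eq_one]
  intro a
  induction a using QuotientGroup.induction_on with
  | H g =>
    intro hg
    rw [QuotientGroup.lift_mk'] at hg
    exact (QuotientGroup.eq_one_iff g).2 hg

/-- **Real vectors exist for nilpotent `p'`-groups.** -/
theorem real_of_nilpotent (n : ℕ) : ∀ (F : Type u) [Group F] [Finite F] [Group.IsNilpotent F]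
    (V : Type v) [AddCommGroup V] [Module (ZMod p) V] [Finite V] (ρ : Representation (ZMod p) F V),
    ¬ p ∣ Nat.card F → finrank (ZMod p) V ≤ n → Real ρ := by
  induction n using Nat.strong_induction_on with
  | _ n ih =>
    intro F _ _ _ V _ _ _ ρ hp hn
    have hfd : Module.Finite (ZMod p) V := Module.Finite.of_finite
    rcases subsingleton_or_nontrivial V with hV | hV
    · exact real_of_subsingleton ρ
    have hpos : 0 < finrank (ZMod p) V := finrank_pos
    -- proper subrepresentations of subgroups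
    by_cases hirr : ∀ W : Subrepresentation ρ, W.toSubmodule = ⊥ ∨ W.toSubmodule = ⊤
    · -- pass to a faithful quotient
      obtain ⟨ρ', hρ', hmk⟩ : ∃ ρ' : Representation (ZMod p) (F ⧸ ρ.ker) V,
          Function.Injective ρ' ∧ ∀ g : F, ρ' (QuotientGroup.mk' ρ.ker g) = ρ g :=
        exists_kerLift ρ
      have hQ : ¬ p ∣ Nat.card (F ⧸ ρ.ker) :=
        fun h => hp (h.trans (Subgroup.card_quotient_dvd_card _))
      have hnil : Group.IsNilpotent (F ⧸ ρ.ker) := inferInstance
      have hirr' : ∀ W : Subrepresentation ρ', W.toSubmodule = ⊥ ∨ W.toSubmodule = ⊤ := by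
        intro W
        refine hirr ⟨W.toSubmodule, fun g v hv => ?_⟩
        have h1 := W.apply_mem_toSubmodule (QuotientGroup.mk' ρ.ker g) hv
        rwa [hmk] at h1
      refine real_of_quotient (QuotientGroup.mk' ρ.ker) hmk
        (real_of_faithful ρ' hρ' hQ hirr' fun S W hW => ?_)
      exact ih (finrank (ZMod p) W.toSubmodule) (hW.trans_le hn) S W.toSubmodule
            W.toRepresentation (fun h => hQ (h.trans (Subgroup.card_subgroup_dvd_card S))) le_rfl
    · push Not at hirr
      obtain ⟨W, hW0, hW1⟩ := hirr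
      have hne : NeZero (Nat.card F : ZMod p) := ⟨by
        rw [Ne, ZMod.natCast_eq_zero_iff]
        exact hp⟩
      obtain ⟨W', hc⟩ := exists_isCompl W
      have hc' : IsCompl W.toSubmodule W'.toSubmodule := by
        constructor
        · rw [Submodule.disjoint_def]
          intro x hx hx'
          have h1 : x ∈ W ⊓ W' := ⟨hx, hx'⟩
          rw [hc.inf_eq_bot] at h1
          exact (Submodule.mem_bot (ZMod p)).1 h1
        · rw [codisjoint_iff, eq_top_iff]
          intro x _
          have h1 : x ∈ W ⊔ W' := by rw [hc.sup_eq_top]; trivial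
          exact h1
      have h1 : finrank (ZMod p) W.toSubmodule < finrank (ZMod p) V := Submodule.finrank_lt hW1
      have h2 : finrank (ZMod p) W'.toSubmodule < finrank (ZMod p) V := by
        refine Submodule.finrank_lt ?_
        intro h
        apply hW0
        have := hc'.inf_eq_bot
        rwa [h, inf_top_eq] at this
      exact real_of_isCompl W W' hc'
        (ih _ (h1.trans_le hn) F W.toSubmodule W.toRepresentation hp le_rfl)
        (ih _ (h2.trans_le hn) F W'.toSubmodule W'.toRepresentation hp le_rfl)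

end Cfsg.Agent.H448.RealMain
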