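import Cfsg.Agent.S4959
import Cfsg.Agent.H448.RealMain

/-!
# `k(GV) ≤ |V|` for nilpotent `G` (for S4990)
-/

set_option autoImplicit false

namespace Cfsg.Agent.H448.KGVNil

open Module Cfsg.Agent.H448.RealVec Cfsg.Agent.H448.RealMain

universe u

/-- **`k(GV) ≤ |V|` for nilpotent `G`.** -/
theorem card_classes_le {X : Type u} [Group X] [Finite X] (p : ℕ) [Fact p.Prime] (V : Subgroup X)
    [V.Normal] (hVexp : ∀ v ∈ V, v ^ p = 1) (hidx : ¬ p ∣ V.index)
    (hself : Subgroup.centralizer (V : Set X) = V) (hnil : Group.IsNilpotent (X ⧸ V)) :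
    Nat.card (ConjClasses X) ≤ Nat.card V := by
  have hpp : p.Prime := Fact.out
  have hab : ∀ a ∈ V, ∀ b ∈ V, a * b = b * a := by
    intro a ha b hb
    rw [← hself] at hb
    exact Subgroup.mem_centralizer_iff.1 hb a ha
  have hpg : IsPGroup p V := fun v => ⟨1, by
    rw [pow_one]
    exact Subtype.ext (hVexp v v.2)⟩
  have hcop : (Nat.card V).Coprime V.index := by
    obtain ⟨k, hk⟩ := IsPGroup.iff_card.1 hpg
    rw [hk]
    exact Nat.Coprime.pow_left k ((Nat.Prime.coprime_iff_not_dvd hpp).2 hidx)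
  obtain ⟨G, hG⟩ := Subgroup.exists_right_complement'_of_coprime hcop
  have hGnil : Group.IsNilpotent G := by
    have := hnil
    exact Group.nilpotent_of_mulEquiv hG.symm.QuotientMulEquiv
  have hcard : ¬ p ∣ Nat.card G := by
    rw [← hG.symm.index_eq_card]
    exact hidx
  obtain ⟨E, i1, i2, i3, e, ρ, he, hρ⟩ := Cfsg.Agent.H718.exists_conjRep p G V hab hVexp
    (fun h _ u hu => Subgroup.Normal.conj_mem inferInstance u hu h)
  obtain ⟨s, B, hB⟩ := real_of_nilpotent (p := p) (finrank (ZMod p) E) G E ρ hcard le_rfl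
  have hstab : ∀ h (hh : h ∈ G), h * (e s : X) * h⁻¹ = (e s : X) → ρ ⟨h, hh⟩ s = s := by
    intro h hh h1
    apply e.injective
    apply Subtype.ext
    rw [hρ]
    exact h1
  have he0 : e 0 = 1 := by
    have h1 := he 0 0
    rw [add_zero] at h1
    exact left_eq_mul.1 h1
  classical
  let β : X → X → ZMod p := fun x y =>
    if hx : x ∈ V then if hy : y ∈ V then B.B (e.symm ⟨x, hx⟩) (e.symm ⟨y, hy⟩) else 0 else 0
  have hβ : ∀ x (hx : x ∈ V) y (hy : y ∈ V), β x y = B.B (e.symm ⟨x, hx⟩) (e.symm ⟨y, hy⟩) := by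
    intro x hx y hy
    show (if hx : x ∈ V then if hy : y ∈ V then B.B (e.symm ⟨x, hx⟩) (e.symm ⟨y, hy⟩) else 0
      else 0) = _
    rw [dif_pos hx, dif_pos hy]
  have hsymm : ∀ x (hx : x ∈ V) y (hy : y ∈ V), e.symm ⟨x * y, V.mul_mem hx hy⟩ =
      e.symm ⟨x, hx⟩ + e.symm ⟨y, hy⟩ := by
    intro x hx y hy
    apply e.injective
    rw [he, Equiv.apply_symm_apply, Equiv.apply_symm_apply, Equiv.apply_symm_apply]
    rfl
  have hconj : ∀ h (hh : h ∈ G) x (hx : x ∈ V),
      e.symm ⟨h * x * h⁻¹, Subgroup.Normal.conj_mem inferInstance x hx h⟩ =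
        ρ ⟨h, hh⟩ (e.symm ⟨x, hx⟩) := by
    intro h hh x hx
    apply e.injective
    rw [Equiv.apply_symm_apply]
    apply Subtype.ext
    rw [hρ, Equiv.apply_symm_apply]
  refine Cfsg.Agent.S4959.result p V hVexp hidx hself G hG (e s : X) (e s).2 V le_rfl
    (fun h _ _ u hu => Subgroup.Normal.conj_mem inferInstance u hu h) ?_ β ?_ ?_ ?_ ?_
  · intro h hh _ h1
    have h2 : h ∈ V := by
      rw [← hself, Subgroup.mem_centralizer_iff]
      intro u hu
      have h3 := h1 u hu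
      exact (mul_inv_eq_iff_eq_mul.1 h3).symm
    have h3 : h ∈ V ⊓ G := ⟨h2, hh⟩
    rw [hG.disjoint.eq_bot] at h3
    exact Subgroup.mem_bot.1 h3
  · intro u hu u' hu' w hw
    rw [hβ _ (V.mul_mem hu hu') _ hw, hβ _ hu _ hw, hβ _ hu' _ hw, hsymm _ hu _ hu', B.add_left]
  · intro u hu w hw w' hw'
    rw [hβ _ hu _ (V.mul_mem hw hw'), hβ _ hu _ hw, hβ _ hu _ hw', hsymm _ hw _ hw', B.add_right]
  · intro h hh h1 u hu w hw
    rw [hβ _ (Subgroup.Normal.conj_mem inferInstance u hu h) _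
      (Subgroup.Normal.conj_mem inferInstance w hw h), hβ _ hu _ hw, hconj h hh u hu,
      hconj h hh w hw]
    exact hB _ (hstab h hh h1) _ _
  · intro u hu h1
    have h2 : e.symm ⟨u, hu⟩ = 0 := by
      apply B.nondeg
      intro y
      have h3 := h1 (e y) (e y).2
      rw [hβ _ hu _ (e y).2] at h3
      have h4 : e.symm ⟨(e y : X), (e y).2⟩ = y := by
        rw [Subtype.coe_eta, Equiv.symm_apply_apply]
      rwa [h4] at h3
    have h3 := congrArg e h2
    rw [Equiv.apply_symm_apply, he0] at h3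
    exact congrArg Subtype.val h3

end Cfsg.Agent.H448.KGVNil
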