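import Cfsg.Agent.H448.RealVec
import Cfsg.Agent.Lib.NormalAbelian

/-!
# Real vectors for nilpotent groups: the induction
-/

set_option autoImplicit false

namespace Cfsg.Agent.H448.RealNil

open Module RealVec

universe u v

variable {p : ℕ} [Fact p.Prime]

section alg

variable {F : Type u} [Group F] {V : Type v} [AddCommGroup V] [Module (ZMod p) V]
  (ρ : Representation (ZMod p) F V) (A : Subgroup F)

/-- The algebra generated by the image of `A`. -/
def alg : Subalgebra (ZMod p) (Module.End (ZMod p) V) :=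
  Algebra.adjoin (ZMod p) (Set.range (fun a : A => ρ a))

theorem mem_alg {a : F} (ha : a ∈ A) : ρ a ∈ alg ρ A :=
  Algebra.subset_adjoin ⟨⟨a, ha⟩, rfl⟩

theorem alg_comm (hA : ∀ a ∈ A, ∀ b ∈ A, a * b = b * a) {x y : Module.End (ZMod p) V}
    (hx : x ∈ alg ρ A) (hy : y ∈ alg ρ A) : x * y = y * x := by
  have h1 : ∀ a ∈ A, ∀ y ∈ alg ρ A, Commute (ρ a) y := by
    intro a ha y hy
    refine Algebra.commute_of_mem_adjoin_of_forall_mem_commute hy ?_
    rintro _ ⟨b, rfl⟩
    change ρ a * ρ b = ρ b * ρ a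
    rw [← map_mul, ← map_mul, hA a ha b b.2]
  have h2 : Commute y x := by
    refine Algebra.commute_of_mem_adjoin_of_forall_mem_commute hx ?_
    rintro _ ⟨b, rfl⟩
    exact (h1 b b.2 y hy).symm
  exact h2.symm

theorem alg_conj [A.Normal] (g : F) {x : Module.End (ZMod p) V} (hx : x ∈ alg ρ A) :
    ρ g * x * ρ g⁻¹ ∈ alg ρ A := by
  induction hx using Algebra.adjoin_induction with
  | mem x hx =>
    obtain ⟨a, rfl⟩ := hx
    simp only
    rw [← map_mul, ← map_mul]
    exact mem_alg ρ A ((inferInstance : A.Normal).conj_mem a a.2 g)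
  | algebraMap r =>
    rw [← Algebra.commutes, mul_assoc, rho_mul_inv, mul_one]
    exact Subalgebra.algebraMap_mem _ r
  | add x y _ _ h1 h2 =>
    rw [mul_add, add_mul]
    exact add_mem h1 h2
  | mul x y _ _ h1 h2 =>
    have h3 : ρ g * (x * y) * ρ g⁻¹ = (ρ g * x * ρ g⁻¹) * (ρ g * y * ρ g⁻¹) := by
      calc ρ g * (x * y) * ρ g⁻¹ = ρ g * x * 1 * y * ρ g⁻¹ := by simp only [mul_assoc, one_mul]
        _ = _ := by rw [← rho_inv_mul ρ g]; simp only [mul_assoc]
    rw [h3]
    exact mul_mem h1 h2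

theorem alg_pow [Nontrivial V] [Finite A] (hA : ∀ a ∈ A, ∀ b ∈ A, a * b = b * a)
    (hp : ¬ p ∣ Nat.card A) : ∃ q, 1 < q ∧ ∀ x ∈ alg ρ A, x ^ q = x := by
  have hpp : p.Prime := Fact.out
  set n := Nat.card A with hn
  have hn0 : 0 < n := Nat.card_pos
  have hcop : Nat.Coprime p n := (Nat.Prime.coprime_iff_not_dvd hpp).2 hp
  have hmod := Nat.ModEq.pow_totient hcop
  have htot : 0 < n.totient := Nat.totient_pos.2 hn0
  have hchar : CharP (Module.End (ZMod p) V) p :=
    charP_of_injective_algebraMap (FaithfulSMul.algebraMap_injective (ZMod p) (Module.End (ZMod p) V)) p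
  refine ⟨p ^ n.totient, Nat.one_lt_pow htot.ne' hpp.one_lt, ?_⟩
  intro x hx
  induction hx using Algebra.adjoin_induction with
  | mem x hx =>
    obtain ⟨a, rfl⟩ := hx
    have h1 : (a : A) ^ (p ^ n.totient) = a := by
      have h2 : p ^ n.totient = p ^ n.totient - 1 + 1 := by
        have := Nat.pow_pos (n := n.totient) hpp.pos
        omega
      have h3 : n ∣ p ^ n.totient - 1 := (Nat.modEq_iff_dvd' (Nat.pow_pos hpp.pos)).1 hmod.symm
      rw [h2, pow_succ]
      obtain ⟨m, hm⟩ := h3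
      rw [hm, pow_mul, hn, pow_card_eq_one', one_pow, one_mul]
    simp only
    rw [← map_pow, ← Subgroup.coe_pow, h1]
  | algebraMap r =>
    rw [← map_pow, ZMod.pow_card_pow]
  | add x y hx hy h1 h2 =>
    rw [add_pow_char_pow_of_commute _ _ (show Commute x y from alg_comm ρ A hA hx hy), h1, h2]
  | mul x y hx hy h1 h2 =>
    rw [Commute.mul_pow (alg_comm ρ A hA hx hy), h1, h2]

end alg

section blocks

variable {F : Type u} [Group F] {V : Type v} [AddCommGroup V] [Module (ZMod p) V]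
  {ρ : Representation (ZMod p) F V}

/-- Primitive idempotents. -/
def Prim (ρ : Representation (ZMod p) F V) (A : Subgroup F) (e : Module.End (ZMod p) V) : Prop :=
  e ∈ alg ρ A ∧ e * e = e ∧ e ≠ 0 ∧ ∀ f ∈ alg ρ A, f * f = f → f * e = f → f ≠ 0 → f = e

theorem Prim.orth {A : Subgroup F} (hA : ∀ a ∈ A, ∀ b ∈ A, a * b = b * a)
    {e f : Module.End (ZMod p) V} (he : Prim ρ A e) (hf : Prim ρ A f) (hne : e ≠ f) : e * f = 0 := by
  by_contra h0
  obtain ⟨he1, he2, he3, he4⟩ := he
  obtain ⟨hf1, hf2, hf3, hf4⟩ := hf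
  have hc : e * f = f * e := alg_comm ρ A hA he1 hf1
  have hm : e * f ∈ alg ρ A := mul_mem he1 hf1
  have hi : e * f * (e * f) = e * f := by
    calc e * f * (e * f) = e * (f * e) * f := by simp only [mul_assoc]
      _ = (e * e) * (f * f) := by rw [← hc]; simp only [mul_assoc]
      _ = e * f := by rw [he2, hf2]
  have h1 := he4 (e * f) hm hi (by rw [mul_assoc, ← hc, ← mul_assoc, he2]) h0
  have h2 := hf4 (e * f) hm hi (by rw [mul_assoc, hf2]) h0
  exact hne (h1.symm.trans h2)

theorem conj_mul_conj (ρ : Representation (ZMod p) F V) (g : F) (x y : Module.End (ZMod p) V) :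
    ρ g * x * ρ g⁻¹ * (ρ g * y * ρ g⁻¹) = ρ g * (x * y) * ρ g⁻¹ := by
  symm
  calc ρ g * (x * y) * ρ g⁻¹ = ρ g * x * 1 * y * ρ g⁻¹ := by simp only [mul_assoc, one_mul]
    _ = _ := by rw [← rho_inv_mul ρ g]; simp only [mul_assoc]

theorem conj_conj_inv (ρ : Representation (ZMod p) F V) (g : F) (x : Module.End (ZMod p) V) :
    ρ g⁻¹ * (ρ g * x * ρ g⁻¹) * ρ g⁻¹⁻¹ = x := by
  rw [inv_inv]
  simp only [mul_assoc, rho_inv_mul, mul_one]
  rw [← mul_assoc, rho_inv_mul, one_mul]

theorem conj_inv_conj (ρ : Representation (ZMod p) F V) (g : F) (x : Module.End (ZMod p) V) :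
    ρ g * (ρ g⁻¹ * x * ρ g⁻¹⁻¹) * ρ g⁻¹ = x := by
  rw [inv_inv]
  simp only [mul_assoc, rho_mul_inv, mul_one]
  rw [← mul_assoc, rho_mul_inv, one_mul]

theorem Prim.conj {A : Subgroup F} [A.Normal] {e : Module.End (ZMod p) V} (he : Prim ρ A e) (g : F) :
    Prim ρ A (ρ g * e * ρ g⁻¹) := by
  obtain ⟨he1, he2, he3, he4⟩ := he
  refine ⟨alg_conj ρ A g he1, by rw [conj_mul_conj, he2], ?_, ?_⟩
  · intro h
    apply he3
    rw [← conj_conj_inv ρ g e, h, mul_zero, zero_mul]
  · intro f hf1 hf2 hf3 hf4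
    have h1 := he4 (ρ g⁻¹ * f * ρ g⁻¹⁻¹) (alg_conj ρ A g⁻¹ hf1) (by rw [conj_mul_conj, hf2]) (by
      conv_lhs => rw [← conj_conj_inv ρ g e]
      rw [conj_mul_conj, hf3]) (by
      intro h
      apply hf4
      rw [← conj_inv_conj ρ g f, h, mul_zero, zero_mul])
    rw [← h1, conj_inv_conj]

theorem exists_prim [Finite V] (A : Subgroup F) (hA : ∀ a ∈ A, ∀ b ∈ A, a * b = b * a)
    {e₀ : Module.End (ZMod p) V} (h1 : e₀ ∈ alg ρ A) (h2 : e₀ * e₀ = e₀) (h3 : e₀ ≠ 0)
    (h4 : e₀ ≠ 1) : ∃ e, Prim ρ A e ∧ e ≠ 1 := by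
  classical
  have hfd : Module.Finite (ZMod p) V := Module.Finite.of_finite
  let T : Set ℕ := {n | ∃ e ∈ alg ρ A, e * e = e ∧ e ≠ 0 ∧ finrank (ZMod p) (LinearMap.range e) = n}
  have hT : T.Nonempty := ⟨_, e₀, h1, h2, h3, rfl⟩
  obtain ⟨e, he1, he2, he3, he4⟩ := Nat.sInf_mem hT
  have hprim : Prim ρ A e := by
    refine ⟨he1, he2, he3, ?_⟩
    intro f hf1 hf2 hf3 hf4
    have hef : e * f = f := by rw [← alg_comm ρ A hA hf1 he1, hf3]
    have hle : LinearMap.range f ≤ LinearMap.range e := by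
      rintro _ ⟨x, rfl⟩
      exact ⟨f x, by rw [← Module.End.mul_apply, hef]⟩
    have hge : finrank (ZMod p) (LinearMap.range e) ≤ finrank (ZMod p) (LinearMap.range f) := by
      rw [he4]
      exact Nat.sInf_le ⟨f, hf1, hf2, hf4, rfl⟩
    have heq := Submodule.eq_of_le_of_finrank_le hle hge
    ext x
    have h5 : e x ∈ LinearMap.range f := heq ▸ ⟨x, rfl⟩
    obtain ⟨y, hy⟩ := h5
    calc f x = (f * e) x := by rw [hf3]
      _ = f (e x) := rfl
      _ = f (f y) := by rw [hy]
      _ = (f * f) y := rfl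
      _ = e x := by rw [hf2, hy]
  refine ⟨e, hprim, ?_⟩
  rintro rfl
  exact h4 (hprim.2.2.2 e₀ h1 h2 (mul_one _) h3)

theorem real_of_idempotent [Finite F] [Finite V]
    (hirr : ∀ W : Subrepresentation ρ, W.toSubmodule = ⊥ ∨ W.toSubmodule = ⊤)
    (A : Subgroup F) [A.Normal] (hA : ∀ a ∈ A, ∀ b ∈ A, a * b = b * a)
    {e₀ : Module.End (ZMod p) V} (h1 : e₀ ∈ alg ρ A) (h2 : e₀ * e₀ = e₀) (h3 : e₀ ≠ 0)
    (h4 : e₀ ≠ 1)
    (ih : ∀ S : Subgroup F, ∀ W : Subrepresentation (ρ.comp S.subtype),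
      finrank (ZMod p) W.toSubmodule < finrank (ZMod p) V → Real W.toRepresentation) : Real ρ := by
  classical
  have hfd : Module.Finite (ZMod p) V := Module.Finite.of_finite
  obtain ⟨e, he, he1⟩ := exists_prim A hA h1 h2 h3 h4
  have hrng : (Set.range (fun g : F => ρ g * e * ρ g⁻¹)).Finite := Set.finite_range _
  set J : Finset (Module.End (ZMod p) V) := hrng.toFinset with hJdef
  have hJ : ∀ f, f ∈ J ↔ ∃ g, f = ρ g * e * ρ g⁻¹ := by
    intro f
    rw [hJdef, Set.Finite.mem_toFinset, Set.mem_range]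
    constructor
    · rintro ⟨g, hg⟩
      exact ⟨g, hg.symm⟩
    · rintro ⟨g, hg⟩
      exact ⟨g, hg.symm⟩
  have hJp : ∀ f ∈ J, Prim ρ A f := by
    intro f hf
    obtain ⟨g, rfl⟩ := (hJ f).1 hf
    exact he.conj g
  have horth : ∀ f ∈ J, ∀ f' ∈ J, f ≠ f' → f * f' = 0 := fun f hf f' hf' hne =>
    (hJp f hf).orth hA (hJp f' hf') hne
  have heJ : e ∈ J := (hJ e).2 ⟨1, by rw [inv_one, map_one, one_mul, mul_one]⟩
  have hJc : ∀ g, ∀ f ∈ J, ρ g * f * ρ g⁻¹ ∈ J := by
    intro g f hf
    obtain ⟨t, rfl⟩ := (hJ f).1 hf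
    rw [hJ]
    refine ⟨g * t, ?_⟩
    rw [map_mul, mul_inv_rev, map_mul]
    simp only [mul_assoc]
  set E : Module.End (ZMod p) V := ∑ f ∈ J, f with hE
  have hEf : ∀ f ∈ J, E * f = f := by
    intro f hf
    rw [hE, Finset.sum_mul, Finset.sum_eq_single_of_mem f hf, (hJp f hf).2.1]
    intro f' hf' hne
    exact horth f' hf' f hf hne
  have hEE : E * E = E := by
    conv_lhs => rw [hE, Finset.mul_sum]
    conv_rhs => rw [hE]
    exact Finset.sum_congr rfl fun f hf => by rw [← hE]; exact hEf f hf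
  have hEc : ∀ g, ρ g * E * ρ g⁻¹ = E := by
    intro g
    rw [hE, Finset.mul_sum, Finset.sum_mul]
    refine Finset.sum_bij' (fun f _ => ρ g * f * ρ g⁻¹) (fun f _ => ρ g⁻¹ * f * ρ g⁻¹⁻¹)
      (hJc g) (hJc g⁻¹) ?_ ?_ ?_
    · intro f _
      exact conj_conj_inv ρ g f
    · intro f _
      exact conj_inv_conj ρ g f
    · intro f _
      rfl
  have hEcomm : ∀ g, ρ g * E = E * ρ g := by
    intro g
    have h5 := congrArg (· * ρ g) (hEc g)
    simp only [mul_assoc, rho_inv_mul, mul_one] at h5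
    exact h5
  have hE1 : E = 1 := by
    let U : Subrepresentation ρ :=
      { toSubmodule := LinearMap.range E
        apply_mem_toSubmodule := by
          rintro g _ ⟨x, rfl⟩
          exact ⟨ρ g x, by rw [← Module.End.mul_apply, ← hEcomm]; rfl⟩ }
    have hU := hirr U
    have hU' : LinearMap.range E = ⊤ := by
      refine hU.resolve_left ?_
      intro h5
      apply he.2.2.1
      have h6 : E = 0 := LinearMap.range_eq_bot.1 h5
      rw [← hEf e heJ, h6, zero_mul]
    ext x
    obtain ⟨y, rfl⟩ : x ∈ LinearMap.range E := hU' ▸ Submodule.mem_top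
    rw [← Module.End.mul_apply, hEE]
    rfl
  let S : Subgroup F :=
    { carrier := {s | ρ s * e = e * ρ s}
      one_mem' := by
        change ρ 1 * e = e * ρ 1
        rw [map_one, one_mul, mul_one]
      mul_mem' := by
        intro a b ha hb
        change ρ (a * b) * e = e * ρ (a * b)
        have ha' : ρ a * e = e * ρ a := ha
        have hb' : ρ b * e = e * ρ b := hb
        rw [map_mul, mul_assoc, hb', ← mul_assoc, ha', mul_assoc]
      inv_mem' := by
        intro a ha
        change ρ a⁻¹ * e = e * ρ a⁻¹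
        have ha' : ρ a * e = e * ρ a := ha
        calc ρ a⁻¹ * e = ρ a⁻¹ * (e * (ρ a * ρ a⁻¹)) := by rw [rho_mul_inv, mul_one]
          _ = ρ a⁻¹ * (e * ρ a) * ρ a⁻¹ := by simp only [mul_assoc]
          _ = (ρ a⁻¹ * ρ a) * e * ρ a⁻¹ := by rw [← ha']; simp only [mul_assoc]
          _ = e * ρ a⁻¹ := by rw [rho_inv_mul, one_mul] }
  let W : Subrepresentation (ρ.comp S.subtype) :=
    { toSubmodule := LinearMap.range e
      apply_mem_toSubmodule := by
        rintro ⟨s, hs⟩ _ ⟨x, rfl⟩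
        have hs' : ρ s * e = e * ρ s := hs
        refine ⟨ρ s x, ?_⟩
        rw [← Module.End.mul_apply, ← hs']
        rfl }
  refine real_of_blocks e he.2.1 J hJ horth hE1 S (fun s => Iff.rfl) W rfl ?_
  apply ih
  refine Submodule.finrank_lt ?_
  intro h5
  apply he1
  ext x
  obtain ⟨y, rfl⟩ : x ∈ LinearMap.range e := by
    change LinearMap.range e = ⊤ at h5
    rw [h5]
    exact Submodule.mem_top
  rw [← Module.End.mul_apply, he.2.1]
  rfl

end blocks

section field

variable {F : Type u} [Group F] {V : Type v} [AddCommGroup V] [Module (ZMod p) V]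
  {ρ : Representation (ZMod p) F V}

theorem real_of_field [Finite F] [Finite V] [Nontrivial V] (hρ : Function.Injective ρ)
    (A : Subgroup F) [A.Normal] (hA : ∀ a ∈ A, ∀ b ∈ A, a * b = b * a)
    (hC : Subgroup.centralizer (A : Set F) = A) (hp : ¬ p ∣ Nat.card A)
    (hid : ∀ e ∈ alg ρ A, e * e = e → e = 0 ∨ e = 1) : Real ρ := by
  classical
  obtain ⟨q, hq1, hq⟩ := alg_pow ρ A hA hp
  obtain ⟨v, hv⟩ := exists_ne (0 : V)
  have hne : (0 : Module.End (ZMod p) V) ≠ 1 := zero_ne_one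
  have hinv : ∀ x ∈ alg ρ A, x ≠ 0 → x * x ^ (q - 2) = 1 := by
    intro x hx hx0
    have h1 : x * x ^ (q - 2) = x ^ (q - 1) := by
      rw [← pow_succ']
      congr 1
      omega
    have h2 : x ^ (q - 1) * x ^ (q - 1) = x ^ (q - 1) := by
      rw [← pow_add]
      have h3 : q - 1 + (q - 1) = q + (q - 2) := by omega
      rw [h3, pow_add, hq x hx, h1]
    rcases hid _ (pow_mem hx _) h2 with h3 | h3
    · exfalso
      apply hx0
      rw [← hq x hx]
      have h4 : q = q - 1 + 1 := by omega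
      rw [h4, pow_succ, h3, zero_mul]
    · rw [h1, h3]
  have hfield : IsField (alg ρ A) :=
    { exists_pair_ne := ⟨0, 1, fun h => hne (congrArg Subtype.val h)⟩
      mul_comm := fun x y => Subtype.ext (alg_comm ρ A hA x.2 y.2)
      mul_inv_cancel := by
        intro x hx
        refine ⟨⟨(x : Module.End (ZMod p) V) ^ (q - 2), pow_mem x.2 _⟩, Subtype.ext ?_⟩
        exact hinv x x.2 (fun h => hx (Subtype.ext h)) }
  let _ : Field (alg ρ A) := hfield.toField
  let _ : Module (alg ρ A) V := Module.compHom V (alg ρ A).val.toRingHom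
  have hEfin : Finite (Module.End (ZMod p) V) :=
    Finite.of_injective (fun f : Module.End (ZMod p) V => (f : V → V)) DFunLike.coe_injective
  have hKfin : Finite (alg ρ A) := Finite.of_injective (fun x => x.1) Subtype.val_injective
  let S : Subgroup F :=
    { carrier := {s | ρ s v = v}
      one_mem' := by
        change ρ 1 v = v
        rw [map_one]
        rfl
      mul_mem' := by
        intro a b ha hb
        change ρ (a * b) v = v
        have ha' : ρ a v = v := ha
        have hb' : ρ b v = v := hb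
        rw [map_mul, Module.End.mul_apply, hb', ha']
      inv_mem' := by
        intro a ha
        change ρ a⁻¹ v = v
        have ha' : ρ a v = v := ha
        conv_lhs => rw [← ha']
        rw [← Module.End.mul_apply, rho_inv_mul]
        rfl }
  let σ : S →* (alg ρ A ≃ₐ[ZMod p] alg ρ A) :=
    { toFun := fun s =>
        { toFun := fun x => ⟨ρ s * x * ρ (s : F)⁻¹, alg_conj ρ A s x.2⟩
          invFun := fun x => ⟨ρ (s : F)⁻¹ * x * ρ (s : F)⁻¹⁻¹, alg_conj ρ A (s : F)⁻¹ x.2⟩
          left_inv := fun x => Subtype.ext (conj_conj_inv ρ s x)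
          right_inv := fun x => Subtype.ext (conj_inv_conj ρ s x)
          map_mul' := fun x y => Subtype.ext (conj_mul_conj ρ s x y).symm
          map_add' := fun x y => Subtype.ext (by
            change ρ s * ((x : Module.End (ZMod p) V) + y) * ρ (s : F)⁻¹ = _
            rw [mul_add, add_mul]
            rfl)
          commutes' := fun r => Subtype.ext (by
            change ρ s * (algebraMap (ZMod p) (Module.End (ZMod p) V) r) * ρ (s : F)⁻¹ =
              algebraMap (ZMod p) (Module.End (ZMod p) V) r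
            rw [← Algebra.commutes, mul_assoc, rho_mul_inv, mul_one]) }
      map_one' := by
        ext x : 2
        change ρ ((1 : S) : F) * (x : Module.End (ZMod p) V) * ρ ((1 : S) : F)⁻¹ = x
        rw [Subgroup.coe_one, inv_one, map_one, one_mul, mul_one]
      map_mul' := by
        intro s t
        ext x : 2
        change ρ ((s * t : S) : F) * (x : Module.End (ZMod p) V) * ρ ((s * t : S) : F)⁻¹ =
          ρ s * (ρ t * x * ρ (t : F)⁻¹) * ρ (s : F)⁻¹
        rw [Subgroup.coe_mul, mul_inv_rev, map_mul, map_mul]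
        simp only [mul_assoc] }
  have hσ : ∀ (s : S) (x : alg ρ A), ((σ s x : alg ρ A) : Module.End (ZMod p) V) =
      ρ s * x * ρ (s : F)⁻¹ := fun _ _ => rfl
  have hσinj : Function.Injective σ := by
    rw [injective_iff_map_eq_one]
    intro s hs
    have hcomm : ∀ a ∈ A, ρ s * ρ a = ρ a * ρ s := by
      intro a ha
      have h1 : (σ s ⟨ρ a, mem_alg ρ A ha⟩ : alg ρ A) = ⟨ρ a, mem_alg ρ A ha⟩ := by
        rw [hs]; rfl
      have h2 : ρ s * ρ a * ρ (s : F)⁻¹ = ρ a := congrArg Subtype.val h1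
      have h3 := congrArg (· * ρ (s : F)) h2
      simp only [mul_assoc, rho_inv_mul, mul_one] at h3
      exact h3
    have hsA : (s : F) ∈ A := by
      rw [← hC, Subgroup.mem_centralizer_iff]
      intro a ha
      apply hρ
      rw [map_mul, map_mul]
      exact (hcomm a ha).symm
    have hx : ρ s - 1 ∈ alg ρ A := sub_mem (mem_alg ρ A hsA) (one_mem _)
    have hx0 : ρ s - 1 = 0 := by
      by_contra h0
      have h1 := hinv _ hx h0
      have h2 : (ρ s - 1) ^ (q - 2) * (ρ s - 1) = 1 := by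
        rw [alg_comm ρ A hA (pow_mem hx _) hx, h1]
      have h3 : ((ρ s - 1) ^ (q - 2) * (ρ s - 1)) v = v := by rw [h2]; rfl
      rw [Module.End.mul_apply, LinearMap.sub_apply, s.2] at h3
      apply hv
      rw [← h3]
      simp
    have h4 : (s : F) = 1 := by
      apply hρ
      rw [map_one]
      exact sub_eq_zero.1 hx0
    exact Subtype.ext h4
  obtain ⟨B, hB⟩ := form_of_semilinear (p := p) (K := alg ρ A) (V := V) (H := S)
    (fun s w => ρ s w) (fun w => by rw [Subgroup.coe_one, map_one]; rfl)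
    (fun g h w => by rw [Subgroup.coe_mul, map_mul]; rfl) (fun g w w' => map_add _ _ _) σ hσinj
    (fun s k w => by
      change ρ s ((k : Module.End (ZMod p) V) w) = (ρ s * k * ρ (s : F)⁻¹) (ρ s w)
      have h1 : ρ s * (k : Module.End (ZMod p) V) * ρ (s : F)⁻¹ * ρ s = ρ s * k := by
        rw [mul_assoc, rho_inv_mul, mul_one]
      exact (LinearMap.congr_fun h1 w).symm)
  exact ⟨v, B, fun g hg x y => hB ⟨g, hg⟩ x y⟩

end field

end Cfsg.Agent.H448.RealNil
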