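import Mathlib

/-!
# Real vectors for nilpotent `p'`-groups (for S4990)

`Real ρ`: some vector `v` is such that the stabilizer of `v` preserves a nondegenerate bilinear form
on the whole space. `real_of_nilpotent`: this holds for every representation of a finite nilpotent
group of order prime to `p` over the field with `p` elements.
-/

set_option autoImplicit false

namespace Cfsg.Agent.H448.RealVec

open Module

universe u v

variable {p : ℕ} [Fact p.Prime]

/-- A nondegenerate biadditive pairing. -/
structure Form (p : ℕ) (V : Type v) [AddCommGroup V] where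
  /-- the pairing -/
  B : V → V → ZMod p
  add_left : ∀ x y z, B (x + y) z = B x z + B y z
  add_right : ∀ x y z, B x (y + z) = B x y + B x z
  nondeg : ∀ x, (∀ y, B x y = 0) → x = 0

theorem Form.zero_left {V : Type v} [AddCommGroup V] (F : Form p V) (y : V) : F.B 0 y = 0 := by
  have h := F.add_left 0 0 y
  rw [add_zero] at h
  exact (left_eq_add.1 h)

theorem Form.zero_right {V : Type v} [AddCommGroup V] (F : Form p V) (y : V) : F.B y 0 = 0 := by
  have h := F.add_right y 0 0
  rw [add_zero] at h
  exact (left_eq_add.1 h)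

/-- Some vector has a stabilizer preserving a nondegenerate form. -/
def Real {F : Type u} [Group F] {V : Type v} [AddCommGroup V] [Module (ZMod p) V]
    (ρ : Representation (ZMod p) F V) : Prop :=
  ∃ (v : V) (B : Form p V), ∀ g, ρ g v = v → ∀ x y, B.B (ρ g x) (ρ g y) = B.B x y

section semilinear

variable {V : Type v} [AddCommGroup V] [Finite V]

/-- **A group of semilinear maps which acts faithfully on the field preserves a nondegenerate form.** -/
theorem form_of_semilinear {K : Type*} [Field K] [Finite K] [Algebra (ZMod p) K] [Module K V]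
    {H : Type*} [Group H] [Finite H] (τ : H → V → V) (τone : ∀ v, τ 1 v = v)
    (τmul : ∀ g h v, τ (g * h) v = τ g (τ h v)) (τadd : ∀ g v w, τ g (v + w) = τ g v + τ g w)
    (σ : H →* (K ≃ₐ[ZMod p] K)) (hσ : Function.Injective σ)
    (hs : ∀ h k v, τ h (k • v) = σ h k • τ h v) :
    ∃ B : Form p V, ∀ h x y, B.B (τ h x) (τ h y) = B.B x y := by
  classical
  have := Fintype.ofFinite H
  have τzero : ∀ g, τ g 0 = 0 := by
    intro g
    have h := τadd g 0 0
    rw [add_zero] at h
    exact left_eq_add.1 h
  let τ' : H → V →+ V := fun g =>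
    { toFun := τ g
      map_zero' := τzero g
      map_add' := τadd g }
  have hτ' : ∀ g v, τ' g v = τ g v := fun _ _ => rfl
  set V0 : Set V := {v | ∀ h, τ h v = v} with hV0
  have havg : ∀ w : V, (∑ h : H, τ h w) ∈ V0 := by
    intro w h'
    rw [← hτ', map_sum]
    refine Fintype.sum_equiv (Equiv.mulLeft h') _ _ ?_
    intro h
    rw [hτ', Equiv.coe_mulLeft, τmul]
  have hspan : Submodule.span K V0 = ⊤ := by
    by_contra hne
    obtain ⟨l, hl0, hl⟩ := Submodule.exists_le_ker_of_lt_top _ (lt_top_iff_ne_top.2 hne)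
    have hkey : ∀ (w : V) (k : K), ∑ h : H, σ h k * l (τ h w) = 0 := by
      intro w k
      have h1 : (∑ h : H, τ h (k • w)) ∈ LinearMap.ker l := hl (Submodule.subset_span (havg _))
      rw [LinearMap.mem_ker, map_sum] at h1
      rw [← h1]
      refine Finset.sum_congr rfl fun h _ => ?_
      rw [hs, map_smul, smul_eq_mul]
    have hlin : LinearIndependent K (fun h : H => (fun k : K => σ h k)) := by
      have h1 := linearIndependent_monoidHom K K
      have h2 : Function.Injective (fun h : H => ((σ h : K ≃ₐ[ZMod p] K) : K →* K)) := by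
        intro a b hab
        apply hσ
        ext k
        exact DFunLike.congr_fun hab k
      exact h1.comp _ h2
    have hz : ∀ w, l w = 0 := by
      intro w
      have h1 := Fintype.linearIndependent_iff.1 hlin (fun h => l (τ h w)) (by
        funext k
        rw [Finset.sum_apply, Pi.zero_apply, ← hkey w k]
        refine Finset.sum_congr rfl fun h _ => ?_
        rw [Pi.smul_apply, smul_eq_mul, mul_comm]) 1
      rwa [τone] at h1
    exact hl0 (LinearMap.ext hz)
  let b := Basis.ofSpan (K := K) hspan.ge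
  have hb : ∀ i, b i ∈ V0 := fun i => Basis.ofSpan_subset hspan.ge ⟨i, rfl⟩
  have hfin : Module.Finite K V := Module.Finite.of_finite
  have hfi : Finite (((linearIndepOn_empty K id).extend (Set.empty_subset V0) : Set V)) :=
    Finite.of_injective (fun i => (i : V)) Subtype.val_injective
  have := Fintype.ofFinite (((linearIndepOn_empty K id).extend (Set.empty_subset V0) : Set V))
  have hrepr : ∀ h x i, b.repr (τ h x) i = σ h (b.repr x i) := by
    intro h x i
    have h1 : τ h x = ∑ j, σ h (b.repr x j) • b j := by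
      conv_lhs => rw [← b.sum_repr x]
      rw [← hτ', map_sum]
      refine Finset.sum_congr rfl fun j _ => ?_
      rw [hτ', hs, hb j h]
    rw [h1, b.repr_sum_self]
  have hfd : FiniteDimensional (ZMod p) K := Module.Finite.of_finite
  have hsep : Algebra.IsSeparable (ZMod p) K := inferInstance
  refine ⟨⟨fun x y => Algebra.trace (ZMod p) K (∑ i, b.repr x i * b.repr y i), ?_, ?_, ?_⟩, ?_⟩
  · intro x y z
    rw [← map_add, ← Finset.sum_add_distrib]
    congr 1
    refine Finset.sum_congr rfl fun i _ => ?_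
    rw [map_add, Finsupp.add_apply, add_mul]
  · intro x y z
    rw [← map_add, ← Finset.sum_add_distrib]
    congr 1
    refine Finset.sum_congr rfl fun i _ => ?_
    rw [map_add, Finsupp.add_apply, mul_add]
  · intro x hx
    apply b.repr.injective
    rw [map_zero]
    ext i
    rw [Finsupp.zero_apply]
    have hnd := traceForm_nondegenerate (ZMod p) K
    refine hnd.1 (b.repr x i) fun k => ?_
    have h1 := hx (k • b i)
    rw [Algebra.traceForm_apply, ← h1]
    congr 1
    rw [Finset.sum_eq_single i]
    · rw [map_smul, b.repr_self, Finsupp.smul_apply, Finsupp.single_eq_same, smul_eq_mul, mul_one]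
    · intro j _ hj
      rw [map_smul, b.repr_self, Finsupp.smul_apply, Finsupp.single_eq_of_ne hj, smul_zero, mul_zero]
    · intro h
      exact absurd (Finset.mem_univ i) h
  · intro h x y
    change Algebra.trace (ZMod p) K (∑ i, b.repr (τ h x) i * b.repr (τ h y) i) =
      Algebra.trace (ZMod p) K (∑ i, b.repr x i * b.repr y i)
    have h1 : (∑ i, b.repr (τ h x) i * b.repr (τ h y) i) = σ h (∑ i, b.repr x i * b.repr y i) := by
      rw [map_sum]
      refine Finset.sum_congr rfl fun i _ => ?_
      rw [hrepr, hrepr, map_mul]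
    rw [h1, Algebra.trace_eq_of_algEquiv]

end semilinear

section sum

variable {F : Type u} [Group F] {V : Type v} [AddCommGroup V] [Module (ZMod p) V]
  {ρ : Representation (ZMod p) F V}

/-- **Direct sums.** -/
theorem real_of_isCompl (W W' : Subrepresentation ρ) (hc : IsCompl W.toSubmodule W'.toSubmodule)
    (h : Real W.toRepresentation) (h' : Real W'.toRepresentation) : Real ρ := by
  obtain ⟨w, B, hB⟩ := h
  obtain ⟨w', B', hB'⟩ := h'
  let P := W.toSubmodule.projectionOnto W'.toSubmodule hc
  let P' := W'.toSubmodule.projectionOnto W.toSubmodule hc.symm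
  have hP1 : ∀ x : W.toSubmodule, P x = x := fun x => Submodule.projectionOnto_apply_left hc x
  have hP2 : ∀ x : W'.toSubmodule, P x = 0 := fun x => Submodule.projectionOnto_apply_right hc x
  have hP1' : ∀ x : W'.toSubmodule, P' x = x := fun x => Submodule.projectionOnto_apply_left hc.symm x
  have hP2' : ∀ x : W.toSubmodule, P' x = 0 := fun x => Submodule.projectionOnto_apply_right hc.symm x
  have hdec : ∀ x : V, ∃ (a : W.toSubmodule) (b : W'.toSubmodule), x = a + b := by
    intro x
    have hx : x ∈ W.toSubmodule ⊔ W'.toSubmodule := hc.sup_eq_top ▸ Submodule.mem_top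
    obtain ⟨a, ha, b, hb, rfl⟩ := Submodule.mem_sup.1 hx
    exact ⟨⟨a, ha⟩, ⟨b, hb⟩, rfl⟩
  have hPρ : ∀ g x, P (ρ g x) = W.toRepresentation g (P x) := by
    intro g x
    obtain ⟨a, b, rfl⟩ := hdec x
    have h1 : ρ g ((a : V) + b) = ((W.toRepresentation g a : W.toSubmodule) : V) +
        ((W'.toRepresentation g b : W'.toSubmodule) : V) := by
      rw [map_add]; rfl
    rw [h1, map_add, map_add, hP1, hP2, hP1, hP2, add_zero, add_zero]
  have hPρ' : ∀ g x, P' (ρ g x) = W'.toRepresentation g (P' x) := by
    intro g x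
    obtain ⟨a, b, rfl⟩ := hdec x
    have h1 : ρ g ((a : V) + b) = ((W.toRepresentation g a : W.toSubmodule) : V) +
        ((W'.toRepresentation g b : W'.toSubmodule) : V) := by
      rw [map_add]; rfl
    rw [h1, map_add, map_add, hP1', hP2', hP1', hP2', zero_add, zero_add]
  refine ⟨(w : V) + w', ⟨fun x y => B.B (P x) (P y) + B'.B (P' x) (P' y), ?_, ?_, ?_⟩, ?_⟩
  · intro x y z
    simp only [map_add, B.add_left, B'.add_left]
    ring
  · intro x y z
    simp only [map_add, B.add_right, B'.add_right]
    ring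
  · intro x hx
    have h1 : P x = 0 := by
      apply B.nondeg
      intro y
      have h2 := hx y
      simp only [hP1, hP2', B'.zero_right, add_zero] at h2
      exact h2
    have h1' : P' x = 0 := by
      apply B'.nondeg
      intro y
      have h2 := hx y
      simp only [hP2, hP1', B.zero_right, zero_add] at h2
      exact h2
    obtain ⟨a, b, rfl⟩ := hdec x
    rw [map_add, hP1, hP2, add_zero] at h1
    rw [map_add, hP1', hP2', zero_add] at h1'
    rw [h1, h1']
    simp
  · intro g hg x y
    have h1 : W.toRepresentation g w = w := by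
      have h2 := hPρ g ((w : V) + w')
      rw [hg, map_add, hP1, hP2, add_zero] at h2
      exact h2.symm
    have h1' : W'.toRepresentation g w' = w' := by
      have h2 := hPρ' g ((w : V) + w')
      rw [hg, map_add, hP1', hP2', zero_add] at h2
      exact h2.symm
    change B.B (P (ρ g x)) (P (ρ g y)) + B'.B (P' (ρ g x)) (P' (ρ g y)) =
      B.B (P x) (P y) + B'.B (P' x) (P' y)
    rw [hPρ, hPρ, hPρ', hPρ', hB g h1, hB' g h1']

end sum

section blocks

variable {F : Type u} [Group F] {V : Type v} [AddCommGroup V] [Module (ZMod p) V]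
  {ρ : Representation (ZMod p) F V}

theorem rho_inv_mul (ρ : Representation (ZMod p) F V) (g : F) : ρ g⁻¹ * ρ g = 1 := by
  rw [← map_mul, inv_mul_cancel, map_one]

theorem rho_mul_inv (ρ : Representation (ZMod p) F V) (g : F) : ρ g * ρ g⁻¹ = 1 := by
  rw [← map_mul, mul_inv_cancel, map_one]

/-- **Systems of imprimitivity**, given by the conjugates of an idempotent. -/
theorem real_of_blocks (e : Module.End (ZMod p) V) (he : e * e = e)
    (J : Finset (Module.End (ZMod p) V)) (hJ : ∀ f, f ∈ J ↔ ∃ g, f = ρ g * e * ρ g⁻¹)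
    (horth : ∀ f ∈ J, ∀ f' ∈ J, f ≠ f' → f * f' = 0) (hsum : ∑ f ∈ J, f = 1)
    (S : Subgroup F) (hS : ∀ s, s ∈ S ↔ ρ s * e = e * ρ s)
    (W : Subrepresentation (ρ.comp S.subtype)) (hW : W.toSubmodule = LinearMap.range e)
    (h : Real W.toRepresentation) : Real ρ := by
  classical
  obtain ⟨w, B, hB⟩ := h
  have hex : ∀ f : Module.End (ZMod p) V, ∃ g : F, f ∈ J → f = ρ g * e * ρ g⁻¹ := by
    intro f
    by_cases hf : f ∈ J
    · obtain ⟨g, hg⟩ := (hJ f).1 hf
      exact ⟨g, fun _ => hg⟩
    · exact ⟨1, fun h => absurd h hf⟩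
  choose c hc using hex
  have hmem : ∀ x : V, e x ∈ W.toSubmodule := fun x => by rw [hW]; exact ⟨x, rfl⟩
  have hfix : ∀ x : W.toSubmodule, e (x : V) = x := by
    intro x
    obtain ⟨y, hy⟩ := (hW ▸ x.2 : (x : V) ∈ LinearMap.range e)
    rw [← hy, ← Module.End.mul_apply, he]
  -- the coordinates
  let q : Module.End (ZMod p) V → V →ₗ[ZMod p] W.toSubmodule := fun f =>
    (e * ρ (c f)⁻¹).codRestrict W.toSubmodule (fun x => hmem _)
  have hq : ∀ f x, ((q f x : W.toSubmodule) : V) = e (ρ (c f)⁻¹ x) := fun _ _ => rfl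
  -- `f ρ(c f') e = ρ(c f') e` or `0`
  have hfe : ∀ f ∈ J, ρ (c f) * e = f * ρ (c f) := by
    intro f hf
    have h1 : f * ρ (c f) = ρ (c f) * e * ρ (c f)⁻¹ * ρ (c f) := congrArg (· * ρ (c f)) (hc f hf)
    rw [h1, mul_assoc (ρ (c f) * e), rho_inv_mul, mul_one]
  have hef : ∀ f ∈ J, e * ρ (c f)⁻¹ = ρ (c f)⁻¹ * f := by
    intro f hf
    have h1 : ρ (c f)⁻¹ * f = ρ (c f)⁻¹ * (ρ (c f) * e * ρ (c f)⁻¹) :=
      congrArg (ρ (c f)⁻¹ * ·) (hc f hf)
    rw [h1, ← mul_assoc, ← mul_assoc, rho_inv_mul, one_mul]
  have hff : ∀ f ∈ J, f * f = f := by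
    intro f hf
    conv_lhs => rw [hc f hf]
    calc ρ (c f) * e * ρ (c f)⁻¹ * (ρ (c f) * e * ρ (c f)⁻¹)
        = ρ (c f) * e * (ρ (c f)⁻¹ * ρ (c f)) * e * ρ (c f)⁻¹ := by simp only [mul_assoc]
      _ = ρ (c f) * (e * e) * ρ (c f)⁻¹ := by rw [rho_inv_mul]; simp only [mul_assoc, mul_one]
      _ = f := by rw [he]; exact (hc f hf).symm
  set v : V := ∑ f ∈ J, ρ (c f) (w : V) with hv
  have hfv : ∀ f ∈ J, f v = ρ (c f) (w : V) := by
    intro f hf
    rw [hv, map_sum, Finset.sum_eq_single_of_mem f hf]
    · have h1 : f * (ρ (c f) * e) = ρ (c f) * e := by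
        rw [hfe f hf, ← mul_assoc, hff f hf]
      have h2 := LinearMap.congr_fun h1 (w : V)
      simp only [Module.End.mul_apply, hfix] at h2
      exact h2
    · intro f' hf' hne
      have h1 : f * (ρ (c f') * e) = 0 := by
        rw [hfe f' hf', ← mul_assoc, horth f hf f' hf' hne.symm, zero_mul]
      have h2 := LinearMap.congr_fun h1 (w : V)
      simp only [Module.End.mul_apply, hfix] at h2
      exact h2
  refine ⟨v, ⟨fun x y => ∑ f ∈ J, B.B (q f x) (q f y), ?_, ?_, ?_⟩, ?_⟩
  · intro x y z
    rw [← Finset.sum_add_distrib]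
    refine Finset.sum_congr rfl fun f _ => ?_
    rw [map_add, B.add_left]
  · intro x y z
    rw [← Finset.sum_add_distrib]
    refine Finset.sum_congr rfl fun f _ => ?_
    rw [map_add, B.add_right]
  · intro x hx
    have h1 : ∀ f ∈ J, q f x = 0 := by
      intro f hf
      apply B.nondeg
      intro a
      have h2 := hx (ρ (c f) (a : V))
      rw [Finset.sum_eq_single_of_mem f hf] at h2
      · have h3 : q f (ρ (c f) (a : V)) = a := by
          apply Subtype.ext
          rw [hq, ← Module.End.mul_apply (ρ (c f)⁻¹), rho_inv_mul, Module.End.one_apply, hfix]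
        rwa [h3] at h2
      · intro f' hf' hne
        have h3 : q f' (ρ (c f) (a : V)) = 0 := by
          apply Subtype.ext
          rw [hq, ← hfix a, ← Module.End.mul_apply, ← Module.End.mul_apply, ← Module.End.mul_apply]
          have h4 : e * ρ (c f')⁻¹ * ρ (c f) * e = 0 := by
            rw [hef f' hf', mul_assoc, hfe f hf, ← mul_assoc, mul_assoc (ρ (c f')⁻¹),
              horth f' hf' f hf hne, mul_zero, zero_mul]
          rw [h4]
          rfl
        rw [h3, B.zero_right]
    have h2 : x = ∑ f ∈ J, f x := by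
      have h3 := LinearMap.congr_fun hsum x
      rw [LinearMap.sum_apply] at h3
      exact h3.symm
    rw [h2]
    refine Finset.sum_eq_zero fun f hf => ?_
    have h3 : f x = ρ (c f) (e (ρ (c f)⁻¹ x)) := by
      conv_lhs => rw [hc f hf]
      rfl
    rw [h3, ← hq, h1 f hf, Submodule.coe_zero, map_zero]
  · intro g hg x y
    -- the action on the blocks
    have hmv : ∀ f ∈ J, ρ g * f * ρ g⁻¹ ∈ J := by
      intro f hf
      obtain ⟨t, rfl⟩ := (hJ f).1 hf
      rw [hJ]
      refine ⟨g * t, ?_⟩
      rw [map_mul, mul_inv_rev, map_mul]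
      simp only [mul_assoc]
    have hmv' : ∀ f ∈ J, ρ g⁻¹ * f * ρ g ∈ J := by
      intro f hf
      obtain ⟨t, rfl⟩ := (hJ f).1 hf
      rw [hJ]
      refine ⟨g⁻¹ * t, ?_⟩
      rw [map_mul, mul_inv_rev, map_mul, inv_inv]
      simp only [mul_assoc]
    change ∑ f ∈ J, B.B (q f (ρ g x)) (q f (ρ g y)) = ∑ f ∈ J, B.B (q f x) (q f y)
    symm
    refine Finset.sum_bij' (fun f _ => ρ g * f * ρ g⁻¹) (fun f _ => ρ g⁻¹ * f * ρ g) hmv hmv' ?_ ?_ ?_
    · intro f _
      simp only [mul_assoc, rho_inv_mul, mul_one]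
      rw [← mul_assoc, rho_inv_mul, one_mul]
    · intro f _
      simp only [mul_assoc, rho_mul_inv, mul_one]
      rw [← mul_assoc, rho_mul_inv, one_mul]
    · intro f hf
      set f' := ρ g * f * ρ g⁻¹ with hf'
      have hf'J : f' ∈ J := hmv f hf
      set s : F := (c f')⁻¹ * g * c f with hs
      have h1 : ρ s * e = e * ρ s := by
        have h2 : ρ s = ρ (c f')⁻¹ * ρ g * ρ (c f) := by rw [hs, map_mul, map_mul]
        have h3 : ρ g * f = f' * ρ g := by
          rw [hf', mul_assoc, mul_assoc, rho_inv_mul, mul_one]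
        rw [h2]
        calc ρ (c f')⁻¹ * ρ g * ρ (c f) * e = ρ (c f')⁻¹ * (ρ g * (ρ (c f) * e)) := by
              simp only [mul_assoc]
          _ = ρ (c f')⁻¹ * ((ρ g * f) * ρ (c f)) := by rw [hfe f hf, mul_assoc]
          _ = (ρ (c f')⁻¹ * f') * (ρ g * ρ (c f)) := by rw [h3]; simp only [mul_assoc]
          _ = e * (ρ (c f')⁻¹ * ρ g * ρ (c f)) := by rw [← hef f' hf'J]; simp only [mul_assoc]
      have hsS : s ∈ S := (hS s).2 h1
      have hcs : ρ (c f') * ρ s = ρ g * ρ (c f) := by
        rw [← map_mul, ← map_mul, hs]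
        congr 1
        group
      have hsw : W.toRepresentation ⟨s, hsS⟩ w = w := by
        apply Subtype.ext
        change ρ s (w : V) = w
        have h2 : f' v = ρ g (ρ (c f) (w : V)) := by
          have h3 : f' v = (ρ g * f * ρ g⁻¹) (ρ g v) := by rw [hg]
          rw [h3, ← Module.End.mul_apply, mul_assoc, rho_inv_mul, mul_one, Module.End.mul_apply,
            hfv f hf]
        rw [hfv f' hf'J, ← Module.End.mul_apply, ← hcs, Module.End.mul_apply] at h2
        have h3 := congrArg (ρ (c f')⁻¹) h2
        rw [← Module.End.mul_apply, ← Module.End.mul_apply, rho_inv_mul] at h3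
        exact h3.symm
      have hqs : ∀ z, q f' (ρ g z) = W.toRepresentation ⟨s, hsS⟩ (q f z) := by
        intro z
        apply Subtype.ext
        change e (ρ (c f')⁻¹ (ρ g z)) = ρ s (e (ρ (c f)⁻¹ z))
        rw [← Module.End.mul_apply (ρ s), h1, Module.End.mul_apply]
        congr 1
        rw [← Module.End.mul_apply, ← Module.End.mul_apply, ← map_mul, ← map_mul, hs]
        congr 2
        group
      rw [hqs, hqs, hB _ hsw]

end blocks

end Cfsg.Agent.H448.RealVec
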