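import Cfsg.Agent.H448.KGVNil
import Cfsg.Agent.H553.Quasi
import Cfsg.Agent.H324.Hall.Reps

/-!
# `k(GV) ≤ 3^(m-1) |V|` for solvable `G`, `|V| = p^m` (for S4990)
-/

set_option autoImplicit false

namespace Cfsg.Agent.H448.Star

open Module Cfsg.Agent.H553

universe u

/-- A faithful representation gives a faithful matrix representation. -/
theorem exists_gl {G : Type*} [Group G] {k : Type*} [Field k] {E : Type*} [AddCommGroup E]
    [Module k E] [Module.Finite k E] {m : ℕ} (hm : finrank k E = m) (ρ : Representation k G E)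
    (hρ : Function.Injective ρ) :
    ∃ f : G →* Matrix.GeneralLinearGroup (Fin m) k, Function.Injective f := by
  let b : Basis (Fin m) k E := (finBasis k E).reindex (finCongr hm)
  let e : Module.End k E ≃* Matrix (Fin m) (Fin m) k :=
    (LinearMap.toMatrixAlgEquiv b).toRingEquiv.toMulEquiv
  refine ⟨(Units.mapEquiv e).toMonoidHom.comp (MonoidHom.toHomUnits ρ), ?_⟩
  intro x y hxy
  apply hρ
  have h1 : MonoidHom.toHomUnits ρ x = MonoidHom.toHomUnits ρ y :=
    (Units.mapEquiv e).injective hxy
  exact congrArg Units.val h1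

/-- A finite group with a faithful complex representation of degree at most `m`, `m ≥ 1`. -/
theorem nb_of_rep {G : Type u} [Group G] [Finite G] [Group.IsSolvable G] {W : Type u}
    [AddCommGroup W] [Module ℂ W] [FiniteDimensional ℂ W] (τ : Representation ℂ G W)
    (hτ : Function.Injective τ) {m : ℕ} (hW : finrank ℂ W ≤ m) : SB.NB G (3 ^ (m - 1)) := by
  rcases Nat.eq_zero_or_pos (finrank ℂ W) with h0 | h0
  · have hsub : Subsingleton W := finrank_zero_iff.1 h0
    have hG : Subsingleton G := by
      constructor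
      intro a b
      apply hτ
      ext w
      exact Subsingleton.elim _ _
    refine ⟨⊥, inferInstance, inferInstance, ?_⟩
    refine SB.SubB.of_card ?_
    have h1 : Nat.card (G ⧸ (⊥ : Subgroup G)) ≤ 1 := by
      have : Subsingleton (G ⧸ (⊥ : Subgroup G)) := Quotient.instSubsingletonQuotient _
      rw [Nat.card_of_subsingleton 1]
    exact h1.trans (Nat.one_le_pow _ _ (by norm_num))
  · have h1 : SB.NB G (3 ^ (finrank ℂ W - 1)) :=
      Quasi.bound_all (finrank ℂ W) h0 G W τ hτ rfl
    exact h1.mono (Nat.pow_le_pow_right (by norm_num) (by omega))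

theorem star {X : Type u} [Group X] [Finite X] [hsolv : Group.IsSolvable X] (p : ℕ) [Fact p.Prime]
    (V : Subgroup X) [V.Normal] (hVexp : ∀ v ∈ V, v ^ p = 1) (hidx : ¬ p ∣ V.index)
    (hself : Subgroup.centralizer (V : Set X) = V) (m : ℕ)
    (hcard : Nat.card V = p ^ m) : Nat.card (ConjClasses X) ≤ 3 ^ (m - 1) * p ^ m := by
  have hpp : p.Prime := Fact.out
  have hab : ∀ a ∈ V, ∀ b ∈ V, a * b = b * a := by
    intro a ha b hb
    rw [← hself] at hb
    exact Subgroup.mem_centralizer_iff.1 hb a ha
  have hcop : (Nat.card V).Coprime V.index := by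
    rw [hcard]
    exact Nat.Coprime.pow_left m ((Nat.Prime.coprime_iff_not_dvd hpp).2 hidx)
  obtain ⟨G, hG⟩ := Subgroup.exists_right_complement'_of_coprime hcop
  have hcardG : ¬ p ∣ Nat.card G := by
    rw [← hG.symm.index_eq_card]
    exact hidx
  obtain ⟨E, i1, i2, i3, e, ρ, he, hρ⟩ := Cfsg.Agent.H718.exists_conjRep p G V hab hVexp
    (fun h _ u hu => Subgroup.Normal.conj_mem inferInstance u hu h)
  have hfin : Module.Finite (ZMod p) E := Module.Finite.of_finite
  have hEc : Nat.card E = p ^ m := by rw [← hcard]; exact Nat.card_congr e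
  have hrank : finrank (ZMod p) E = m := by
    have h1 : Nat.card E = Nat.card (ZMod p) ^ finrank (ZMod p) E := Module.natCard_eq_pow_finrank
    rw [hEc, Nat.card_zmod] at h1
    exact (Nat.pow_right_injective hpp.two_le h1).symm
  have hinj : Function.Injective ρ := by
    rw [injective_iff_map_eq_one]
    intro g hg
    have h2 : (g : X) ∈ V := by
      rw [← hself, Subgroup.mem_centralizer_iff]
      intro u hu
      have h3 := hρ g (e.symm ⟨u, hu⟩)
      rw [hg, Module.End.one_apply, Equiv.apply_symm_apply] at h3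
      exact (mul_inv_eq_iff_eq_mul.1 h3.symm).symm
    have h3 : (g : X) ∈ V ⊓ G := ⟨h2, g.2⟩
    rw [hG.disjoint.eq_bot] at h3
    exact Subtype.ext (Subgroup.mem_bot.1 h3)
  obtain ⟨f, hf⟩ := exists_gl hrank ρ hinj
  obtain ⟨W, j1, j2, j3, τ, hτ, hW⟩ := Cfsg.Agent.H324.Hall.exists_lift hpp hcardG f hf
  obtain ⟨N, hN, hNnil, hNB⟩ := nb_of_rep τ hτ hW
  -- the projection onto `G`
  let π : X →* G := (hG.symm.QuotientMulEquiv).toMonoidHom.comp (QuotientGroup.mk' V)
  have hπ : Function.Surjective π :=
    (hG.symm.QuotientMulEquiv).surjective.comp (QuotientGroup.mk'_surjective V)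
  have hker : π.ker = V := by
    ext x
    rw [MonoidHom.mem_ker]
    change hG.symm.QuotientMulEquiv (QuotientGroup.mk' V x) = 1 ↔ _
    rw [map_eq_one_iff _ (hG.symm.QuotientMulEquiv).injective]
    exact QuotientGroup.eq_one_iff x
  obtain ⟨K, hKdef⟩ : ∃ K : Subgroup X, K = N.comap π := ⟨_, rfl⟩
  have hKn : K.Normal := by rw [hKdef]; infer_instance
  have hKm : ∀ x, x ∈ K ↔ π x ∈ N := by
    intro x
    rw [hKdef]
    rfl
  have hVK : V ≤ K := by
    rw [hKdef, ← hker]
    exact MonoidHom.ker_le_comap π N
  have h1 : Nat.card (ConjClasses K) ≤ Nat.card V := by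
    have hV' : (V.subgroupOf K).Normal := inferInstance
    have h2 : Nat.card (V.subgroupOf K) = Nat.card V :=
      Nat.card_congr (Subgroup.subgroupOfEquivOfLe hVK).toEquiv
    rw [← h2]
    refine KGVNil.card_classes_le p (V.subgroupOf K) ?_ ?_ ?_ ?_
    · intro v hv
      exact Subtype.ext (hVexp v hv)
    · intro h
      exact hidx (h.trans (Subgroup.relIndex_dvd_index_of_normal V K))
    · apply le_antisymm
      · intro x hx
        rw [Subgroup.mem_subgroupOf, ← hself, Subgroup.mem_centralizer_iff]
        intro v hv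
        exact congrArg Subtype.val
          (Subgroup.mem_centralizer_iff.1 hx ⟨v, hVK hv⟩ (Subgroup.mem_subgroupOf.2 hv))
      · intro x hx
        rw [Subgroup.mem_centralizer_iff]
        intro v hv
        exact Subtype.ext (hab v (Subgroup.mem_subgroupOf.1 hv) x (Subgroup.mem_subgroupOf.1 hx))
    · let g : K →* N := (π.comp K.subtype).codRestrict N (fun x => (hKm x).1 x.2)
      have hg : Function.Surjective g := by
        rintro ⟨y, hy⟩
        obtain ⟨x, rfl⟩ := hπ y
        refine ⟨⟨x, (hKm x).2 hy⟩, ?_⟩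
        rfl
      have hgk : g.ker = V.subgroupOf K := by
        ext x
        rw [MonoidHom.mem_ker, Subgroup.mem_subgroupOf, ← hker, MonoidHom.mem_ker]
        constructor
        · intro h
          exact congrArg Subtype.val h
        · intro h
          exact Subtype.ext h
      have hnn := hNnil
      exact Group.nilpotent_of_mulEquiv
        ((QuotientGroup.quotientKerEquivOfSurjective g hg).symm.trans
          (QuotientGroup.quotientMulEquivOfEq hgk))
  have h2 : Nat.card (ConjClasses (X ⧸ K)) ≤ 3 ^ (m - 1) := by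
    have h3 := hNB ⊤
    rw [KClass.congr Subgroup.topEquiv] at h3
    let g : X →* G ⧸ N := (QuotientGroup.mk' N).comp π
    have hg : Function.Surjective g := (QuotientGroup.mk'_surjective N).comp hπ
    have hgk : g.ker = K := by
      ext x
      rw [MonoidHom.mem_ker, hKm]
      exact QuotientGroup.eq_one_iff (π x)
    rw [← KClass.congr ((QuotientGroup.quotientKerEquivOfSurjective g hg).symm.trans
          (QuotientGroup.quotientMulEquivOfEq hgk))]
    exact h3
  calc Nat.card (ConjClasses X) ≤ Nat.card (ConjClasses K) * Nat.card (ConjClasses (X ⧸ K)) :=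
        KClass.le_mul K
    _ ≤ p ^ m * 3 ^ (m - 1) := Nat.mul_le_mul (h1.trans hcard.le) h2
    _ = _ := mul_comm _ _

end Cfsg.Agent.H448.Star
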