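import Cfsg.Agent.H448.Star
import Cfsg.Agent.PLocal.SectionFrattini
import Cfsg.Agent.OddOrderLocal.RankTwoSolvable
import Cfsg.Agent.Lib.FrattiniPGroup

/-!
# `k(X) ≤ 3^(d-1) p^d` for solvable `X` with `O_{p'}(X) = 1`, `|X|_p = p^d` (for S4990)
-/

set_option autoImplicit false

namespace Cfsg.Agent.H448.TheoremB

open Cfsg Cfsg.Agent.H553 Cfsg.Agent.Lib.Cores
open scoped commutatorElement

universe u

/-- The bottom layer: `k(K) ≤ 3^(m-1) |N|`. -/
theorem layer {X : Type u} [Group X] [Finite X] [hsolv : Group.IsSolvable X] (p : ℕ) [Fact p.Prime]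
    (N : Subgroup X) [N.Normal] (hN : IsPGroup p N) (hidx : ¬ p ∣ N.index) (n : ℕ)
    (hn : Nat.card N = p ^ n) (hcent : Subgroup.centralizer (N : Set X) ≤ N) :
    Nat.card (ConjClasses X) ≤ 3 ^ (n - 1) * p ^ n := by
  have hpp : p.Prime := Fact.out
  obtain ⟨Φ, hΦ⟩ : ∃ Φ : Subgroup X, Φ = (frattini N).map N.subtype := ⟨_, rfl⟩
  have hΦn : Φ.Normal := by rw [hΦ]; infer_instance
  have hΦN : Φ ≤ N := by
    rw [hΦ]
    exact Subgroup.map_subtype_le _
  have hmem : ∀ x : N, x ∈ frattini N → (x : X) ∈ Φ := by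
    intro x hx
    rw [hΦ]
    exact ⟨x, hx, rfl⟩
  set V : Subgroup (X ⧸ Φ) := N.map (QuotientGroup.mk' Φ) with hV
  have hVn : V.Normal := Subgroup.Normal.map inferInstance _ (QuotientGroup.mk'_surjective Φ)
  have hVp : IsPGroup p V := hN.map _
  obtain ⟨m, hm⟩ := IsPGroup.iff_card.1 hVp
  have hcomap : V.comap (QuotientGroup.mk' Φ) = N := by
    rw [hV, Subgroup.comap_map_eq, QuotientGroup.ker_mk', sup_eq_left.2 hΦN]
  have hcard : Nat.card Φ * Nat.card V = Nat.card N := by
    have h1 := Subgroup.card_mul_index Φ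
    have h2 := Subgroup.card_mul_index N
    have h3 := Subgroup.card_mul_index V
    have h4 : V.index = N.index := by
      rw [← hcomap, Subgroup.index_comap_of_surjective _ (QuotientGroup.mk'_surjective Φ)]
    have h5 : Φ.index = Nat.card (X ⧸ Φ) := rfl
    rw [h5, ← h3, h4, ← h2] at h1
    have h6 : 0 < N.index := Nat.pos_of_ne_zero Subgroup.index_ne_zero_of_finite
    exact Nat.eq_of_mul_eq_mul_right h6 (by rw [← h1, mul_assoc])
  have hstar : Nat.card (ConjClasses (X ⧸ Φ)) ≤ 3 ^ (m - 1) * p ^ m := by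
    refine Star.star p V ?_ ?_ ?_ m hm
    · rintro _ ⟨x, hx, rfl⟩
      rw [← map_pow]
      refine (QuotientGroup.eq_one_iff _).2 ?_
      exact hmem (⟨x, hx⟩ ^ p) (Lib.FrattiniPGroup.pow_mem_frattini hN _)
    · rw [← Subgroup.index_comap_of_surjective V (QuotientGroup.mk'_surjective Φ), hcomap]
      exact hidx
    · -- the centralizer
      have h1 : IsPGroup p (sectionKernel N ((frattini N).map N.subtype)) :=
        PLocal.SectionFrattini.isPGroup_sectionKernel_frattini N hN hcent
      have hNS : N ≤ sectionKernel N ((frattini N).map N.subtype) := by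
        intro x hx
        rw [PLocal.SectionFrattini.mem_sectionKernel]
        intro k hk
        rw [← hΦ]
        have h2 : ⁅(⟨k, hk⟩ : N), (⟨x, hx⟩ : N)⁆ ∈ frattini N :=
          Lib.FrattiniPGroup.commutator_le_frattini hN
            (Subgroup.commutator_mem_commutator (Subgroup.mem_top _) (Subgroup.mem_top _))
        exact hmem _ h2
      have hSN : sectionKernel N ((frattini N).map N.subtype) ≤ N := by
        rw [← Subgroup.relIndex_eq_one]
        obtain ⟨k, hk⟩ := IsPGroup.iff_card.1 h1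
        have h2 : N.relIndex (sectionKernel N ((frattini N).map N.subtype)) ∣ p ^ k := by
          rw [← hk]
          exact Subgroup.relIndex_dvd_card _ _
        have h3 : ¬ p ∣ N.relIndex (sectionKernel N ((frattini N).map N.subtype)) := fun h =>
          hidx (h.trans (Subgroup.relIndex_dvd_index_of_normal _ _))
        obtain ⟨j, _, hj⟩ := (Nat.dvd_prime_pow hpp).1 h2
        rcases Nat.eq_zero_or_pos j with rfl | hj0
        · rw [hj, pow_zero]
        · exact absurd (hj ▸ dvd_pow_self p hj0.ne') h3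
      apply Subgroup.comap_injective (QuotientGroup.mk'_surjective Φ)
      rw [hcomap]
      subst hΦ
      exact le_antisymm hSN hNS
  have hne : m ≤ n := by
    have h1 : p ^ m ∣ p ^ n := by rw [← hm, ← hn, ← hcard]; exact Dvd.intro_left _ rfl
    exact (Nat.pow_dvd_pow_iff_le_right hpp.one_lt).1 h1
  calc Nat.card (ConjClasses X) ≤ Nat.card (ConjClasses Φ) * Nat.card (ConjClasses (X ⧸ Φ)) :=
        KClass.le_mul Φ
    _ ≤ Nat.card Φ * (3 ^ (m - 1) * p ^ m) := Nat.mul_le_mul KClass.le_card hstar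
    _ = 3 ^ (m - 1) * (Nat.card Φ * p ^ m) := by ring
    _ = 3 ^ (m - 1) * p ^ n := by rw [← hm, hcard, hn]
    _ ≤ 3 ^ (n - 1) * p ^ n :=
        Nat.mul_le_mul_right _ (Nat.pow_le_pow_right (by norm_num) (by omega))

/-- **`k(X) ≤ 3^(d-1) p^d` for solvable `X` with `O_{p'}(X) = 1` and `|X|_p = p^d`.** -/
theorem card_classes_le (p : ℕ) [Fact p.Prime] (c : ℕ) : ∀ (X : Type u) [Group X] [Finite X],
    Nat.card X ≤ c → Group.IsSolvable X → pPrimeCore p X = ⊥ → 1 < Nat.card X →
    Nat.card (ConjClasses X) ≤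
      3 ^ ((Nat.card X).factorization p - 1) * p ^ ((Nat.card X).factorization p) := by
  have hpp : p.Prime := Fact.out
  induction c using Nat.strong_induction_on with
  | _ c ih =>
  intro X _ _ hc hsolv hbot h1
  set N := pCore p X with hNdef
  have hNp : IsPGroup p N := pCore_isPGroup p
  have hNn : N.Normal := Lib.Cores.pCore_normal p
  have hcent : Subgroup.centralizer (N : Set X) ≤ N :=
    OddOrderLocal.RankTwoSolvable.centralizer_pCore_le hbot
  have hN1 : N ≠ ⊥ := by
    intro h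
    rw [h] at hcent
    have h2 : Subgroup.centralizer ((⊥ : Subgroup X) : Set X) = ⊤ := by
      rw [eq_top_iff]
      intro x _
      rw [Subgroup.mem_centralizer_iff]
      intro y hy
      rw [Subgroup.coe_bot, Set.mem_singleton_iff] at hy
      rw [hy, one_mul, mul_one]
    rw [h2] at hcent
    have h3 : Nat.card X = 1 := by
      rw [← Subgroup.card_top]
      exact Subgroup.card_eq_one.2 (le_bot_iff.1 hcent)
    omega
  obtain ⟨n, hn⟩ := IsPGroup.iff_card.1 hNp
  have hn0 : 1 ≤ n := by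
    rcases Nat.eq_zero_or_pos n with h | h
    · exfalso
      apply hN1
      rw [← Subgroup.card_eq_one, hn, h, pow_zero]
    · exact h
  -- the quotient
  let f : X →* (X ⧸ N) ⧸ pPrimeCore p (X ⧸ N) :=
    (QuotientGroup.mk' (pPrimeCore p (X ⧸ N))).comp (QuotientGroup.mk' N)
  have hf : Function.Surjective f :=
    (QuotientGroup.mk'_surjective _).comp (QuotientGroup.mk'_surjective _)
  have hfm : ∀ x, x ∈ f.ker ↔ QuotientGroup.mk' N x ∈ pPrimeCore p (X ⧸ N) := fun x =>
    QuotientGroup.eq_one_iff (QuotientGroup.mk' N x)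
  have hNK : N ≤ f.ker := by
    intro x hx
    rw [hfm]
    have : QuotientGroup.mk' N x = 1 := (QuotientGroup.eq_one_iff x).2 hx
    rw [this]
    exact Subgroup.one_mem _
  have hKcomap : f.ker = (pPrimeCore p (X ⧸ N)).comap (QuotientGroup.mk' N) := by
    ext x
    exact hfm x
  have hcop : (Nat.card (pPrimeCore p (X ⧸ N))).Coprime p := pPrimeCore_coprime p
  have hcop' : ¬ p ∣ Nat.card (pPrimeCore p (X ⧸ N)) := fun h =>
    (Nat.Prime.coprime_iff_not_dvd hpp).1 hcop.symm h
  have hrel : N.relIndex f.ker = Nat.card (pPrimeCore p (X ⧸ N)) := by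
    let g : f.ker →* pPrimeCore p (X ⧸ N) :=
      ((QuotientGroup.mk' N).comp f.ker.subtype).codRestrict _ (fun x => (hfm x).1 x.2)
    have hg : Function.Surjective g := by
      rintro ⟨y, hy⟩
      obtain ⟨x, rfl⟩ := QuotientGroup.mk'_surjective N y
      exact ⟨⟨x, (hfm x).2 hy⟩, rfl⟩
    have hgk : g.ker = N.subgroupOf f.ker := by
      ext x
      rw [MonoidHom.mem_ker, Subgroup.mem_subgroupOf]
      constructor
      · intro h
        exact (QuotientGroup.eq_one_iff (x : X)).1 (congrArg Subtype.val h)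
      · intro h
        exact Subtype.ext ((QuotientGroup.eq_one_iff (x : X)).2 h)
    rw [Subgroup.relIndex, ← hgk]
    exact Nat.card_congr (QuotientGroup.quotientKerEquivOfSurjective g hg).toEquiv
  have hKcard : Nat.card f.ker = p ^ n * Nat.card (pPrimeCore p (X ⧸ N)) := by
    rw [← hn, ← hrel]
    have h4 := Subgroup.card_mul_index (N.subgroupOf f.ker)
    have h5 : Nat.card (N.subgroupOf f.ker) = Nat.card N :=
      Nat.card_congr (Subgroup.subgroupOfEquivOfLe hNK).toEquiv
    rw [h5] at h4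
    exact h4.symm
  have hK : Nat.card (ConjClasses f.ker) ≤ 3 ^ (n - 1) * p ^ n := by
    have hNn' : (N.subgroupOf f.ker).Normal := inferInstance
    refine layer p (N.subgroupOf f.ker) ?_ ?_ n ?_ ?_
    · exact hNp.of_equiv (Subgroup.subgroupOfEquivOfLe hNK).symm
    · change ¬ p ∣ N.relIndex f.ker
      rw [hrel]
      intro h
      exact (Nat.Prime.coprime_iff_not_dvd hpp).1 hcop.symm h
    · rw [← hn]
      exact Nat.card_congr (Subgroup.subgroupOfEquivOfLe hNK).toEquiv
    · intro x hx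
      rw [Subgroup.mem_subgroupOf]
      apply hcent
      rw [Subgroup.mem_centralizer_iff]
      intro v hv
      exact congrArg Subtype.val
        (Subgroup.mem_centralizer_iff.1 hx ⟨v, hNK hv⟩ (Subgroup.mem_subgroupOf.2 hv))
  have hcardX : Nat.card X = Nat.card f.ker * Nat.card ((X ⧸ N) ⧸ pPrimeCore p (X ⧸ N)) := by
    rw [← Subgroup.card_mul_index f.ker]
    congr 1
    exact Nat.card_congr (QuotientGroup.quotientKerEquivOfSurjective f hf).toEquiv
  have hkX : Nat.card (ConjClasses X) ≤ Nat.card (ConjClasses f.ker) *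
      Nat.card (ConjClasses ((X ⧸ N) ⧸ pPrimeCore p (X ⧸ N))) := by
    refine (KClass.le_mul f.ker).trans_eq ?_
    rw [KClass.congr (QuotientGroup.quotientKerEquivOfSurjective f hf)]
  have hfac : (Nat.card X).factorization p =
      n + (Nat.card ((X ⧸ N) ⧸ pPrimeCore p (X ⧸ N))).factorization p := by
    rw [hcardX, hKcard, Nat.factorization_mul, Nat.factorization_mul]
    · rw [Finsupp.add_apply, Finsupp.add_apply, Nat.factorization_pow, Finsupp.smul_apply,
        hpp.factorization_self, smul_eq_mul, mul_one, Nat.factorization_eq_zero_of_not_dvd hcop',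
        add_zero]
    · exact pow_ne_zero _ hpp.ne_zero
    · exact Nat.card_pos.ne'
    · exact mul_ne_zero (pow_ne_zero _ hpp.ne_zero) Nat.card_pos.ne'
    · exact Nat.card_pos.ne'
  have hsol : Group.IsSolvable ((X ⧸ N) ⧸ pPrimeCore p (X ⧸ N)) := inferInstance
  rcases Nat.lt_or_ge 1 (Nat.card ((X ⧸ N) ⧸ pPrimeCore p (X ⧸ N))) with h2 | h2
  · have hlt : Nat.card ((X ⧸ N) ⧸ pPrimeCore p (X ⧸ N)) < Nat.card X := by
      rw [hcardX, hKcard]
      have h4 : 1 < p ^ n := Nat.one_lt_pow (by omega) hpp.one_lt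
      have h5 : 0 < Nat.card (pPrimeCore p (X ⧸ N)) := Nat.card_pos
      have h6 : 1 < p ^ n * Nat.card (pPrimeCore p (X ⧸ N)) := by nlinarith
      nlinarith
    have h3 := ih _ (hlt.trans_le hc) ((X ⧸ N) ⧸ pPrimeCore p (X ⧸ N)) le_rfl hsol
      (pPrimeCore_quotient_pPrimeCore p) h2
    rw [hfac]
    set e := (Nat.card ((X ⧸ N) ⧸ pPrimeCore p (X ⧸ N))).factorization p with he
    calc Nat.card (ConjClasses X) ≤ (3 ^ (n - 1) * p ^ n) * (3 ^ (e - 1) * p ^ e) :=
          hkX.trans (Nat.mul_le_mul hK h3)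
      _ = 3 ^ (n - 1 + (e - 1)) * p ^ (n + e) := by ring
      _ ≤ 3 ^ (n + e - 1) * p ^ (n + e) :=
          Nat.mul_le_mul_right _ (Nat.pow_le_pow_right (by norm_num) (by omega))
  · have h3 : Nat.card ((X ⧸ N) ⧸ pPrimeCore p (X ⧸ N)) = 1 := by
      have := Nat.card_pos (α := (X ⧸ N) ⧸ pPrimeCore p (X ⧸ N))
      omega
    rw [hfac, h3, Nat.factorization_one, Finsupp.coe_zero, Pi.zero_apply, add_zero]
    refine hkX.trans ?_
    have h4 : Nat.card (ConjClasses ((X ⧸ N) ⧸ pPrimeCore p (X ⧸ N))) ≤ 1 := by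
      rw [← h3]
      exact KClass.le_card
    calc _ ≤ (3 ^ (n - 1) * p ^ n) * 1 := Nat.mul_le_mul hK h4
      _ = _ := mul_one _

end Cfsg.Agent.H448.TheoremB
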